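import Groth.Agent.Etalg2.H529.Transfer
import Mathlib.RingTheory.AdjoinRoot

/-!
# The transfer data attached to two congruent monic polynomials
-/

set_option autoImplicit false
universe u

open Polynomial

namespace Groth.Agent.Etalg2.H529.AdjData

/-- Base change of monic adjoinings along an injective map is injective. -/
theorem map_injective {D F : Type u} [CommRing D] [CommRing F] (i : D →+* F)
    (hi : Function.Injective i) (g : D[X]) (hg : g.Monic) :
    Function.Injective (AdjoinRoot.map i g (g.map i) dvd_rfl) := by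
  cases subsingleton_or_nontrivial F with
  | inl h =>
    have : Subsingleton D := hi.subsingleton
    have : Subsingleton (AdjoinRoot g) := by
      have : Subsingleton D[X] := inferInstance
      exact (AdjoinRoot.mk_surjective (g := g)).subsingleton
    exact fun x y _ => Subsingleton.elim _ _
  | inr h =>
  rw [injective_iff_map_eq_zero]
  intro x hx
  obtain ⟨P, rfl⟩ := AdjoinRoot.mk_surjective x
  have hD : Nontrivial D := i.domain_nontrivial
  have h1 : AdjoinRoot.mk g P = AdjoinRoot.mk g (P %ₘ g) := by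
    rw [AdjoinRoot.mk_eq_mk]
    exact ⟨P /ₘ g, by rw [sub_eq_iff_eq_add, add_comm]; exact (modByMonic_add_div P g).symm⟩
  rw [h1] at hx ⊢
  have h2 : AdjoinRoot.map i g (g.map i) dvd_rfl (AdjoinRoot.mk g (P %ₘ g)) =
      AdjoinRoot.mk (g.map i) ((P %ₘ g).map i) := by
    rw [AdjoinRoot.map, AdjoinRoot.lift_mk, ← AdjoinRoot.aeval_eq, aeval_def, eval₂_map,
      AdjoinRoot.algebraMap_eq]
  rw [h2] at hx
  by_contra hne
  have hne' : P %ₘ g ≠ 0 := fun h0 => hne (by rw [h0, map_zero])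
  have hdeg : ((P %ₘ g).map i).degree < (g.map i).degree := by
    rw [degree_map_eq_of_injective hi, degree_map_eq_of_injective hi]
    exact degree_modByMonic_lt P hg
  exact AdjoinRoot.mk_ne_zero_of_degree_lt (hg.map i) ((Polynomial.map_ne_zero_iff hi).mpr hne') hdeg hx

theorem map_mk {D F : Type u} [CommRing D] [CommRing F] (i : D →+* F) (g P : D[X]) :
    AdjoinRoot.map i g (g.map i) dvd_rfl (AdjoinRoot.mk g P) = AdjoinRoot.mk (g.map i) (P.map i) := by
  rw [AdjoinRoot.map, AdjoinRoot.lift_mk, ← AdjoinRoot.aeval_eq, aeval_def, eval₂_map,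
      AdjoinRoot.algebraMap_eq]

section

variable {D F S : Type u} [CommRing D] [Field F] [CommRing S] [IsDomain S] (j : D →+* F) (i : D →+* S)
  (π : D) (N c : ℕ) (g₁ g₂ h : D[X]) (β : S)

/-- The map `D[X]/(g₂) → D[X]/(g₁, π ^ N)`. -/
noncomputable def f (hg : g₁ = g₂ + C (π ^ N) * h) :
    AdjoinRoot g₂ →+* AdjoinRoot g₁ ⧸ Ideal.span {(AdjoinRoot.of g₁ π) ^ N} :=
  AdjoinRoot.lift ((Ideal.Quotient.mk _).comp (AdjoinRoot.of g₁))
    (Ideal.Quotient.mk _ (AdjoinRoot.root g₁)) (by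
      rw [← hom_eval₂]
      have h1 : g₂ = g₁ - C (π ^ N) * h := by rw [hg]; ring
      rw [h1, eval₂_sub, AdjoinRoot.eval₂_root, zero_sub, eval₂_mul, eval₂_C, map_pow,
        Ideal.Quotient.eq_zero_iff_mem, neg_mem_iff]
      exact Ideal.mul_mem_right _ _ (Ideal.mem_span_singleton_self _))

theorem f_mk (hg : g₁ = g₂ + C (π ^ N) * h) (P : D[X]) :
    f π N g₁ g₂ h hg (AdjoinRoot.mk g₂ P) = Ideal.Quotient.mk _ (AdjoinRoot.mk g₁ P) := by
  rw [f, AdjoinRoot.lift_mk, ← hom_eval₂]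
  congr 1
  rw [← AdjoinRoot.aeval_eq, aeval_def, AdjoinRoot.algebraMap_eq]

/-- The transfer data. -/
theorem data (hj : Function.Injective j) (hm₁ : g₁.Monic) (hm₂ : g₂.Monic) (hg : g₁ = g₂ + C (π ^ N) * h)
    (hπ : π ≠ 0) (hiπ : i π ≠ 0)
    (hβ : g₁.eval₂ i β = 0) (hinj : ∀ P : D[X], P.degree < g₁.degree → P.eval₂ i β = 0 → P = 0)
    (hcond : ∀ y : S, ∃ P : D[X], P.eval₂ i β = i π ^ c * y) (hN : 2 * c + 2 ≤ N) :
    Transfer.Data (AdjoinRoot.lift i β hβ) (AdjoinRoot.map j g₂ (g₂.map j) dvd_rfl)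
      (AdjoinRoot.of g₁ π) (AdjoinRoot.of g₂ π) c N (f π N g₁ g₂ h hg) where
  inj₁ := by
    have hD : Nontrivial D := j.domain_nontrivial
    rw [injective_iff_map_eq_zero]
    intro x hx
    obtain ⟨P, rfl⟩ := AdjoinRoot.mk_surjective x
    have h1 : AdjoinRoot.mk g₁ P = AdjoinRoot.mk g₁ (P %ₘ g₁) := by
      rw [AdjoinRoot.mk_eq_mk]
      exact ⟨P /ₘ g₁, by rw [sub_eq_iff_eq_add, add_comm]; exact (modByMonic_add_div P g₁).symm⟩
    rw [h1] at hx ⊢
    rw [AdjoinRoot.lift_mk] at hx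
    rw [hinj _ (degree_modByMonic_lt P hm₁) hx, map_zero]
  inj₂ := map_injective j hj g₂ hm₂
  reg₁ := by
    rw [AdjoinRoot.lift_of]
    exact mem_nonZeroDivisors_of_ne_zero hiπ
  unit₂ := by
    rw [AdjoinRoot.map_of]
    exact ((isUnit_iff_ne_zero.mpr ((map_ne_zero_iff _ hj).mpr hπ))).map (AdjoinRoot.of (g₂.map j))
  cond := by
    intro y
    obtain ⟨P, hP⟩ := hcond y
    exact ⟨AdjoinRoot.mk g₁ P, by rw [AdjoinRoot.lift_mk, hP, AdjoinRoot.lift_of]⟩
  surj := by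
    intro z
    obtain ⟨y, rfl⟩ := Ideal.Quotient.mk_surjective z
    obtain ⟨P, rfl⟩ := AdjoinRoot.mk_surjective y
    exact ⟨AdjoinRoot.mk g₂ P, f_mk π N g₁ g₂ h hg P⟩
  ker := by
    ext x
    obtain ⟨P, rfl⟩ := AdjoinRoot.mk_surjective x
    rw [RingHom.mem_ker, f_mk, Ideal.Quotient.eq_zero_iff_mem, Ideal.mem_span_singleton, Ideal.mem_span_singleton]
    constructor
    · rintro ⟨y, hy⟩
      obtain ⟨Q, rfl⟩ := AdjoinRoot.mk_surjective y
      rw [← map_pow, ← AdjoinRoot.mk_C, ← map_mul, AdjoinRoot.mk_eq_mk] at hy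
      obtain ⟨R, hR⟩ := hy
      refine ⟨AdjoinRoot.mk g₂ (Q + h * R), ?_⟩
      rw [← map_pow, ← AdjoinRoot.mk_C, ← map_mul, AdjoinRoot.mk_eq_mk]
      refine ⟨R, ?_⟩
      rw [hg] at hR
      linear_combination hR
    · rintro ⟨y, hy⟩
      obtain ⟨Q, rfl⟩ := AdjoinRoot.mk_surjective y
      rw [← map_pow, ← AdjoinRoot.mk_C, ← map_mul, AdjoinRoot.mk_eq_mk] at hy
      obtain ⟨R, hR⟩ := hy
      refine ⟨AdjoinRoot.mk g₁ (Q - h * R), ?_⟩
      rw [← map_pow, ← AdjoinRoot.mk_C, ← map_mul, AdjoinRoot.mk_eq_mk]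
      refine ⟨R, ?_⟩
      rw [hg]
      linear_combination hR
  map_pi := f_mk π N g₁ g₂ h hg (C π)
  hN := hN

end

end Groth.Agent.Etalg2.H529.AdjData
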