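import Groth.Agent.Etalg2.H529.Transfer
import Groth.Agent.Etalg.DVRExt
import Mathlib.RingTheory.Ideal.GoingUp
import Mathlib.RingTheory.LocalRing.RingHom.Basic
import Mathlib.RingTheory.DiscreteValuationRing.Basic

/-!
# The transferred ring of a discrete valuation ring is a discrete valuation ring
-/

set_option autoImplicit false
universe u

open IsLocalRing

namespace Groth.Agent.Etalg2.H529.Analysis

open Transfer

variable {C₁ C₂ B₁ M₂ D : Type u} [CommRing C₁] [CommRing C₂] [CommRing B₁] [CommRing M₂] [CommRing D]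
  {ι₁ : C₁ →+* B₁} {ι₂ : C₂ →+* M₂} {π₁ : C₁} {π₂ : C₂} {c N : ℕ}
  {f : C₂ →+* C₁ ⧸ Ideal.span {π₁ ^ N}} (hd : Data ι₁ ι₂ π₁ π₂ c N f)

/-- The inclusion of `C₂` in the transferred ring. -/
def incl : C₂ →+* ring hd := ι₂.codRestrict (ring hd) (map_mem_ring hd)

theorem coe_incl (x : C₂) : (incl hd x : M₂) = ι₂ x := rfl

/-- The transferred ring is a finite module. -/
theorem finite [IsNoetherianRing D] [Algebra D C₂] [Module.Finite D C₂] :
    ((incl hd).comp (algebraMap D C₂)).Finite := by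
  let _ : Algebra D (ring hd) := ((incl hd).comp (algebraMap D C₂)).toAlgebra
  show Module.Finite D (ring hd)
  have hex : ∀ x : ring hd, ∃ c₂ : C₂, ι₂ c₂ = ι₂ π₂ ^ c * (x : M₂) := fun x => exists_of_mem_ring hd x.2
  choose g hg using hex
  let φ : ring hd →ₗ[D] C₂ :=
    { toFun := g
      map_add' := fun x y => hd.inj₂ (by
        rw [map_add, hg, hg, hg, ← mul_add]; rfl)
      map_smul' := fun d x => hd.inj₂ (by
        have h1 : ((d • x : ring hd) : M₂) = ι₂ (algebraMap D C₂ d) * x := rfl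
        rw [RingHom.id_apply, hg, h1, Algebra.smul_def, map_mul, hg]; ring) }
  have hφ : Function.Injective φ := by
    intro x y hxy
    have h1 : g x = g y := hxy
    have h2 : ι₂ π₂ ^ c * (x : M₂) = ι₂ π₂ ^ c * (y : M₂) := by rw [← hg, ← hg, h1]
    exact Subtype.ext ((hd.unit₂.pow c).mul_left_cancel h2)
  exact Module.Finite.of_injective φ hφ

/-- `π` lies in every maximal ideal of the transferred ring. -/
theorem pi_mem_of_isMaximal [IsNoetherianRing D] [IsLocalRing D] [Algebra D C₂] [Module.Finite D C₂]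
    {π : D} (hπ : π ∈ maximalIdeal D) (hπ₂ : algebraMap D C₂ π = π₂) (M : Ideal (ring hd)) [hM : M.IsMaximal] :
    pi hd ∈ M := by
  let _ : Algebra D (ring hd) := ((incl hd).comp (algebraMap D C₂)).toAlgebra
  have hfin : Module.Finite D (ring hd) := finite (D := D) hd
  have h1 : (M.comap (algebraMap D (ring hd))).IsMaximal :=
    Ideal.isMaximal_comap_of_isIntegral_of_isMaximal M
  rw [IsLocalRing.eq_maximalIdeal h1 |>.symm] at hπ
  have h2 : algebraMap D (ring hd) π ∈ M := hπ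
  have h3 : algebraMap D (ring hd) π = pi hd := by
    apply Subtype.ext
    show ι₂ (algebraMap D C₂ π) = ι₂ π₂
    rw [hπ₂]
  rwa [h3] at h2

theorem isUnit_one_add [IsNoetherianRing D] [IsLocalRing D] [Algebra D C₂] [Module.Finite D C₂]
    {π : D} (hπ : π ∈ maximalIdeal D) (hπ₂ : algebraMap D C₂ π = π₂) (z : ring hd) :
    IsUnit (1 + pi hd * z) := by
  by_contra h
  obtain ⟨M, hM, hmem⟩ := exists_max_ideal_of_mem_nonunits h
  have h1 := pi_mem_of_isMaximal hd hπ hπ₂ M
  apply hM.ne_top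
  rw [Ideal.eq_top_iff_one]
  have : (1 : ring hd) = (1 + pi hd * z) - pi hd * z := by ring
  rw [this]
  exact sub_mem hmem (Ideal.mul_mem_right _ _ h1)

theorem mem_ker_iff (x : ring hd) : comparison hd x = 0 ↔ ∃ z, x = pi hd ^ 2 * z := by
  rw [← RingHom.mem_ker, comparison_ker, Ideal.mem_span_singleton]
  rfl

/-- The comparison map is local. -/
theorem isLocalHom_comparison [IsNoetherianRing D] [IsLocalRing D] [Algebra D C₂] [Module.Finite D C₂]
    {π : D} (hπ : π ∈ maximalIdeal D) (hπ₂ : algebraMap D C₂ π = π₂) : IsLocalHom (comparison hd) := by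
  refine ⟨fun x hx => ?_⟩
  obtain ⟨u, hu⟩ := hx
  obtain ⟨y, hy⟩ := comparison_surjective hd ((u⁻¹ : (B₁ ⧸ Ideal.span {ι₁ π₁ ^ 2})ˣ) : B₁ ⧸ Ideal.span {ι₁ π₁ ^ 2})
  have h1 : comparison hd (x * y - 1) = 0 := by
    rw [map_sub, map_mul, hy, ← hu, Units.mul_inv, map_one, sub_self]
  obtain ⟨z, hz⟩ := (mem_ker_iff hd _).mp h1
  have h2 : x * y = 1 + pi hd * (pi hd * z) := by
    have : x * y = (x * y - 1) + 1 := by ring
    rw [this, hz]; ring
  have h3 : IsUnit (x * y) := h2 ▸ isUnit_one_add hd hπ hπ₂ _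
  exact isUnit_of_mul_isUnit_left h3

theorem isLocalRing_quotient [IsLocalRing B₁] (h : ι₁ π₁ ∈ maximalIdeal B₁) :
    IsLocalRing (B₁ ⧸ Ideal.span {ι₁ π₁ ^ 2}) := by
  have hne : Ideal.span {ι₁ π₁ ^ 2} ≠ ⊤ := by
    intro h1
    have h2 : Ideal.span {ι₁ π₁ ^ 2} ≤ maximalIdeal B₁ := by
      rw [Ideal.span_singleton_le_iff_mem]
      exact Ideal.pow_mem_of_mem _ h 2 (by norm_num)
    rw [h1, top_le_iff] at h2
    exact (maximalIdeal.isMaximal B₁).ne_top h2
  have : Nontrivial (B₁ ⧸ Ideal.span {ι₁ π₁ ^ 2}) := Ideal.Quotient.nontrivial_iff.mpr hne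
  exact IsLocalRing.of_surjective' (Ideal.Quotient.mk _) Ideal.Quotient.mk_surjective

theorem isLocalRing [IsNoetherianRing D] [IsLocalRing D] [Algebra D C₂] [Module.Finite D C₂]
    {π : D} (hπ : π ∈ maximalIdeal D) (hπ₂ : algebraMap D C₂ π = π₂)
    [IsLocalRing B₁] (h : ι₁ π₁ ∈ maximalIdeal B₁) : IsLocalRing (ring hd) := by
  have h1 := isLocalHom_comparison hd hπ hπ₂
  have h2 := isLocalRing_quotient h
  exact RingHom.domain_isLocalRing (comparison hd)

/-- An element of the transferred ring is a unit iff a related element is. -/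
theorem isUnit_iff [IsNoetherianRing D] [IsLocalRing D] [Algebra D C₂] [Module.Finite D C₂]
    {π : D} (hπ : π ∈ maximalIdeal D) (hπ₂ : algebraMap D C₂ π = π₂)
    [IsLocalRing B₁] (h : ι₁ π₁ ∈ maximalIdeal B₁) {x : ring hd} {y : B₁}
    (hxy : comparison hd x = Ideal.Quotient.mk _ y) : IsUnit x ↔ IsUnit y := by
  have h1 := isLocalHom_comparison hd hπ hπ₂
  have h2 := isLocalRing_quotient h
  have h3 : IsLocalHom (Ideal.Quotient.mk (Ideal.span {ι₁ π₁ ^ 2})) :=
    IsLocalHom.of_surjective _ Ideal.Quotient.mk_surjective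
  constructor
  · intro hx
    have := hx.map (comparison hd)
    rw [hxy] at this
    exact isUnit_of_map_unit _ _ this
  · intro hy
    have := hy.map (Ideal.Quotient.mk (Ideal.span {ι₁ π₁ ^ 2}))
    rw [← hxy] at this
    exact isUnit_of_map_unit _ _ this

/-- The transferred ring of a discrete valuation ring is a discrete valuation ring, any element related to a
uniformizer being a uniformizer. -/
theorem isDVR [IsNoetherianRing D] [IsLocalRing D] [Algebra D C₂] [Module.Finite D C₂] [Nontrivial M₂]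
    {π : D} (hπ : π ∈ maximalIdeal D) (hπ₂ : algebraMap D C₂ π = π₂)
    [IsLocalRing B₁] (h : ι₁ π₁ ∈ maximalIdeal B₁) {t₁ : B₁} (ht₁ : maximalIdeal B₁ = Ideal.span {t₁})
    {t₂ : ring hd} (ht : comparison hd t₂ = Ideal.Quotient.mk _ t₁) :
    ∃ (_ : IsDomain (ring hd)) (_ : IsDiscreteValuationRing (ring hd)), maximalIdeal (ring hd) = Ideal.span {t₂} := by
  have hloc : IsLocalRing (ring hd) := isLocalRing hd hπ hπ₂ h
  let _ : Algebra D (ring hd) := ((incl hd).comp (algebraMap D C₂)).toAlgebra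
  have hfin : Module.Finite D (ring hd) := finite (D := D) hd
  have hnoeth : IsNoetherianRing (ring hd) := IsNoetherianRing.of_finite D (ring hd)
  have hstep : ∀ x : ring hd, x ∈ maximalIdeal (ring hd) → ∃ s z, x = t₂ * s + pi hd ^ 2 * z := by
    intro x hx
    obtain ⟨y, hy⟩ := Ideal.Quotient.mk_surjective (comparison hd x)
    have h1 : y ∈ maximalIdeal B₁ := by
      rw [mem_maximalIdeal, mem_nonunits_iff] at hx ⊢
      rwa [isUnit_iff hd hπ hπ₂ h hy.symm] at hx
    rw [ht₁, Ideal.mem_span_singleton] at h1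
    obtain ⟨s₁, rfl⟩ := h1
    obtain ⟨s, hs⟩ := comparison_surjective hd (Ideal.Quotient.mk _ s₁)
    have h2 : comparison hd (x - t₂ * s) = 0 := by
      rw [map_sub, map_mul, ht, hs, ← hy, ← map_mul, sub_self]
    obtain ⟨z, hz⟩ := (mem_ker_iff hd _).mp h2
    exact ⟨s, z, by rw [← hz]; ring⟩
  have hpim : pi hd ∈ maximalIdeal (ring hd) := by
    rw [mem_maximalIdeal, mem_nonunits_iff, isUnit_iff hd hπ hπ₂ h (comparison_pi hd)]
    exact h
  have hpit : ∃ s, pi hd = t₂ * s := by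
    obtain ⟨s, z, hsz⟩ := hstep _ hpim
    have hu : IsUnit (1 + pi hd * (-z)) := isUnit_one_add hd hπ hπ₂ _
    obtain ⟨u, hu⟩ := hu
    refine ⟨s * (u⁻¹ : (ring hd)ˣ), ?_⟩
    have h1 : pi hd * (u : ring hd) = t₂ * s := by
      rw [hu]
      linear_combination hsz
    rw [← mul_assoc, ← h1, Units.mul_inv_cancel_right]
  have ht₂m : t₂ ∈ maximalIdeal (ring hd) := by
    rw [mem_maximalIdeal, mem_nonunits_iff, isUnit_iff hd hπ hπ₂ h ht]
    have : t₁ ∈ maximalIdeal B₁ := by rw [ht₁]; exact Ideal.mem_span_singleton_self _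
    exact this
  have hmax : maximalIdeal (ring hd) = Ideal.span {t₂} := by
    apply le_antisymm
    · intro x hx
      obtain ⟨s, z, hsz⟩ := hstep x hx
      obtain ⟨w, hw⟩ := hpit
      rw [Ideal.mem_span_singleton]
      refine ⟨s + w * pi hd * z, ?_⟩
      rw [hsz]
      linear_combination (pi hd * z) * hw
    · rw [Ideal.span_singleton_le_iff_mem]
      exact ht₂m
  have hnil : ¬ IsNilpotent t₂ := by
    rintro ⟨k, hk⟩
    obtain ⟨w, hw⟩ := hpit
    have h1 : pi hd ^ k = 0 := by rw [hw, mul_pow, hk, zero_mul]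
    have h2 : ι₂ π₂ ^ k = 0 := congrArg Subtype.val h1
    have h3 := hd.unit₂.pow k
    rw [h2] at h3
    exact not_isUnit_zero h3
  obtain ⟨hdom, hdvr⟩ := Groth.Agent.Etalg.DVRExt.isDVR_of_principal (ring hd) t₂ hmax hnil
  exact ⟨hdom, hdvr, hmax⟩

end Groth.Agent.Etalg2.H529.Analysis
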