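import Mathlib.FieldTheory.PurelyInseparable.Tower
import Mathlib.FieldTheory.Normal.Closure
import Groth.Agent.Etalg.RamRed
import Groth.Agent.VarietyA.GeomRedAlg

/-!
# Field theory for the separable solution
-/

set_option autoImplicit false
universe u

open IntermediateField TensorProduct

namespace Groth.Agent.Etalg2.H529.FieldStep

/-- An inseparable finite extension `E` is `F(b)` with `b ^ p ∈ F`, `b ∉ F`, and `F` has smaller inseparable
degree. -/
theorem exists_step {K E : Type u} [Field K] [Field E] [Algebra K E] [FiniteDimensional K E] (p : ℕ)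
    [ExpChar K p] (h : ¬ Algebra.IsSeparable K E) :
    ∃ (F : IntermediateField K E) (b : E), b ∉ F ∧ b ^ p ∈ F ∧ F ⊔ K⟮b⟯ = ⊤ ∧
      Field.finInsepDegree K F < Field.finInsepDegree K E := by
  have hwf : WellFoundedGT (IntermediateField K E) := by
    let f : IntermediateField K E → Submodule K E := fun F => Subalgebra.toSubmodule F.toSubalgebra
    have hf : StrictMono f := by
      intro F G hFG
      exact Subalgebra.toSubmodule.strictMono (lt_of_le_of_ne hFG.le fun h => hFG.ne (toSubalgebra_injective h))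
    exact hf.wellFoundedGT
  have hS : separableClosure K E ≠ ⊤ := fun h' => h ((separableClosure.eq_top_iff K E).mp h')
  obtain ⟨F, hF, hmax⟩ := hwf.wf.has_min {F : IntermediateField K E | separableClosure K E ≤ F ∧ F ≠ ⊤}
    ⟨_, le_rfl, hS⟩
  have hpi : IsPurelyInseparable F E := (separableClosure_le_iff K E F).mp hF.1
  obtain ⟨x, hx⟩ : ∃ x : E, x ∉ F := by
    by_contra hcon
    push Not at hcon
    exact hF.2 (eq_top_iff.mpr fun x _ => hcon x)
  classical
  have hpF : ExpChar F p := expChar_of_injective_algebraMap (algebraMap K F).injective p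
  have hex : ∃ n : ℕ, x ^ p ^ n ∈ F := by
    obtain ⟨n, y, hy⟩ := IsPurelyInseparable.pow_mem F p x
    exact ⟨n, by rw [← hy]; exact y.2⟩
  let n := Nat.find hex
  have hn : x ^ p ^ n ∈ F := Nat.find_spec hex
  have hn0 : n ≠ 0 := by
    intro h0
    rw [h0, pow_zero, pow_one] at hn
    exact hx hn
  obtain ⟨m, hm⟩ := Nat.exists_eq_succ_of_ne_zero hn0
  have hbF : x ^ p ^ m ∉ F := Nat.find_min hex (by
    change m < n
    omega)
  refine ⟨F, x ^ p ^ m, hbF, ?_, ?_, ?_⟩
  · rw [← pow_mul, ← pow_succ]
    rw [hm] at hn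
    exact hn
  · by_contra hne
    refine hmax (F ⊔ K⟮x ^ p ^ m⟯) ⟨hF.1.trans le_sup_left, hne⟩ ?_
    refine lt_of_le_of_ne le_sup_left fun h' => hbF ?_
    rw [h']
    exact (le_sup_right : K⟮x ^ p ^ m⟯ ≤ _) (mem_adjoin_simple_self K _)
  · have h1 := Field.finInsepDegree_mul_finInsepDegree_of_isAlgebraic K F E
    have h2 : Field.finInsepDegree F E = Module.finrank F E := IsPurelyInseparable.finInsepDegree_eq F E
    have h3 : Module.finrank F E ≠ 1 := fun h' => hF.2 (finrank_eq_one_iff_eq_top.mp h')
    have h4 : 0 < Module.finrank F E := Module.finrank_pos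
    have h5 : Field.finInsepDegree K F ≠ 0 := NeZero.ne _
    rw [h2] at h1
    rw [← h1]
    exact lt_mul_of_one_lt_right (Nat.pos_of_ne_zero h5) (by omega)

/-- If `L / K` is geometrically reduced and `F / K` is algebraic, then a compositum `M = L F` is geometrically
reduced over `F`. -/
theorem geomReduced_compositum {K L F M : Type u} [Field K] [Field L] [Field F] [Field M] [Algebra K L] [Algebra K F]
    [Algebra K M] [Algebra L M] [Algebra F M] [IsScalarTower K L M] [IsScalarTower K F M]
    [Algebra.IsGeometricallyReduced K L] [Algebra.IsAlgebraic K F]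
    (hadj : Algebra.adjoin L (Set.range (algebraMap F M)) = ⊤) : Algebra.IsGeometricallyReduced F M := by
  let Φ : F ⊗[K] L →ₐ[F] M := Algebra.TensorProduct.lift (Algebra.ofId F M) (IsScalarTower.toAlgHom K L M)
    (fun _ _ => Commute.all _ _)
  have hΦ : ∀ (x : F) (y : L), Φ (x ⊗ₜ y) = algebraMap F M x * algebraMap L M y :=
    fun x y => Algebra.TensorProduct.lift_tmul _ _ _ x y
  have hsurj : Function.Surjective Φ := by
    intro x
    have hx : x ∈ Algebra.adjoin L (Set.range (algebraMap F M)) := by rw [hadj]; trivial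
    induction hx using Algebra.adjoin_induction with
    | mem y hy =>
      obtain ⟨z, rfl⟩ := hy
      exact ⟨z ⊗ₜ 1, by rw [hΦ, map_one, mul_one]⟩
    | algebraMap l => exact ⟨1 ⊗ₜ l, by rw [hΦ, map_one, one_mul]⟩
    | add x y _ _ hx hy =>
      obtain ⟨x', rfl⟩ := hx
      obtain ⟨y', rfl⟩ := hy
      exact ⟨x' + y', map_add _ _ _⟩
    | mul x y _ _ hx hy =>
      obtain ⟨x', rfl⟩ := hx
      obtain ⟨y', rfl⟩ := hy
      exact ⟨x' * y', map_mul _ _ _⟩
  have hred : IsReduced (F ⊗[K] L) := Groth.Agent.VarietyA.GeomRedAlg.isReduced_tensorProduct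
  have hred' : IsReduced (L ⊗[K] F) :=
    isReduced_of_injective _ (Algebra.TensorProduct.comm K L F).injective
  have hint : Algebra.IsIntegral L (L ⊗[K] F) := inferInstance
  have hreg : ∀ x : F ⊗[K] L, Φ x = 0 → ∃ s, Φ s ≠ 0 ∧ s * x = 0 := by
    intro x hx
    obtain ⟨s, g, h1, h2⟩ := Groth.Agent.Etalg.RamRed.exists_mul_eq_zero_of_isIntegral (k := L)
      ((Algebra.TensorProduct.comm K L F).symm x)
    let c := Algebra.TensorProduct.comm K L F
    have h1' : c s * x = 0 := by
      have := congrArg c h1
      rwa [map_mul, map_zero, AlgEquiv.apply_symm_apply] at this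
    have h2' : c s + c g * x = 1 := by
      have := congrArg c h2
      rwa [map_add, map_mul, map_one, AlgEquiv.apply_symm_apply] at this
    refine ⟨c s, ?_, h1'⟩
    have h3 := congrArg Φ h2'
    rw [map_add, map_mul, hx, mul_zero, add_zero, map_one] at h3
    rw [h3]
    exact one_ne_zero
  have hgr : Algebra.IsGeometricallyReduced F (F ⊗[K] L) :=
    Groth.Agent.Etalg.RamRed.isGeometricallyReduced_baseChange
  exact Groth.Agent.Etalg.RamRed.isGeometricallyReduced_of_surjective Φ hsurj hreg

theorem mem_of_pow_mem_aux {F E M : Type u} [Field F] [Field E] [Field M] [Algebra F M] [Algebra F E] [Algebra E M]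
    [IsScalarTower F E M] [Algebra.IsGeometricallyReduced F M]
    (p : ℕ) (hp : p.Prime) [CharP F p] (β : E) (a : F) (hβ : β ^ p = algebraMap F E a) :
    ∃ a : F, algebraMap F E a = β := by
  have hred : IsReduced (E ⊗[F] M) := Groth.Agent.VarietyA.GeomRedAlg.isReduced_tensorProduct
  have hnt : Nontrivial (E ⊗[F] M) := (Algebra.TensorProduct.includeLeft_injective (S := F) (A := E) (B := M)
        (algebraMap F M).injective).nontrivial
  have hchar : CharP (E ⊗[F] M) p := charP_of_injective_algebraMap (algebraMap F (E ⊗[F] M)).injective p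
  have : Fact p.Prime := ⟨hp⟩
  have hnil : (β ⊗ₜ[F] (1 : M) - (1 : E) ⊗ₜ[F] algebraMap E M β) = 0 := by
    have hexp' : ExpChar (E ⊗[F] M) p := ExpChar.prime hp
    have h1 : (β ⊗ₜ[F] (1 : M) - (1 : E) ⊗ₜ[F] algebraMap E M β) ^ p = 0 := by
      rw [sub_pow_expChar, Algebra.TensorProduct.tmul_pow, Algebra.TensorProduct.tmul_pow, ← map_pow, hβ, one_pow,
        one_pow, ← IsScalarTower.algebraMap_apply,
        sub_eq_zero, Algebra.algebraMap_eq_smul_one, Algebra.algebraMap_eq_smul_one, smul_tmul]
    exact eq_zero_of_pow_eq_zero h1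
  by_contra hcon
  -- `1, β` are linearly independent over `F`
  have hli : LinearIndependent F ![(1 : E), β] := by
    rw [LinearIndependent.pair_iff]
    intro s t hst
    by_cases ht : t = 0
    · rw [ht, zero_smul, add_zero] at hst
      exact ⟨(smul_eq_zero.mp hst).resolve_right one_ne_zero, ht⟩
    · exfalso
      apply hcon
      refine ⟨-(s / t), ?_⟩
      rw [Algebra.smul_def, Algebra.smul_def, mul_one] at hst
      have ht' : algebraMap F E t ≠ 0 := (map_ne_zero _).mpr ht
      rw [map_neg, map_div₀]
      field_simp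
      linear_combination -hst
  -- extend linear independence to the tensor product
  have hli' := Module.Flat.linearIndependent_one_tmul (S := M) hli
  have hli'' := Fintype.linearIndependent_iff.mp hli' ![algebraMap E M β, -1] (by
    rw [Fin.sum_univ_two]
    simp only [Matrix.cons_val_zero, Matrix.cons_val_one]
    rw [smul_tmul', smul_tmul', smul_eq_mul, mul_one, smul_eq_mul, mul_one]
    have := congrArg (Algebra.TensorProduct.comm F E M) hnil
    rw [map_sub, map_zero, Algebra.TensorProduct.comm_tmul, Algebra.TensorProduct.comm_tmul] at this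
    rw [neg_tmul, ← sub_eq_add_neg, ← neg_sub, this, neg_zero]) 1
  simp at hli''

/-- In a geometrically reduced extension there are no new `p`-th roots. -/
theorem mem_of_pow_mem {F M : Type u} [Field F] [Field M] [Algebra F M] [Algebra.IsGeometricallyReduced F M]
    (p : ℕ) (hp : p.Prime) [CharP F p] (b : M) (a : F) (ha : b ^ p = algebraMap F M a) :
    ∃ a : F, algebraMap F M a = b := by
  obtain ⟨a', ha'⟩ := mem_of_pow_mem_aux (F := F) (E := F⟮b⟯) (M := M) p hp (AdjoinSimple.gen F b) a (by
    apply (algebraMap F⟮b⟯ M).injective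
    rw [map_pow, AdjoinSimple.algebraMap_gen, ha, ← IsScalarTower.algebraMap_apply])
  refine ⟨a', ?_⟩
  rw [IsScalarTower.algebraMap_apply F F⟮b⟯ M, ha', AdjoinSimple.algebraMap_gen]

end Groth.Agent.Etalg2.H529.FieldStep
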