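import Groth.Agent.Etalg2.H529.OneLevel
import Groth.Agent.Etalg.RamDict
import Groth.Agent.CalgA.NagataFinite
import Groth.Agent.Ega4B.NagBasic
import Mathlib.FieldTheory.KummerPolynomial

/-!
# Valuation rings of finite extensions in the Nagata case
-/

set_option autoImplicit false
universe u

open IsLocalRing Polynomial

namespace Groth.Agent.Etalg2.H529.NagataVal

open OneLevel EtRam

/-- A valuation subring of a finite extension dominating a Nagata discrete valuation ring is Nagata. -/
theorem isNagata_of_dominates {B L M : Type u} [CommRing B] [IsDomain B] [IsDiscreteValuationRing B] [Field L]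
    [Algebra B L] [IsFractionRing B L] [Field M] [Algebra L M] [FiniteDimensional L M] (hB : CAlg.IsNagata B)
    (V : ValuationSubring M) (hV : Dominates B ((algebraMap L M).comp (algebraMap B L)) V) : CAlg.IsNagata V := by
  let i1 : Algebra B M := ((algebraMap L M).comp (algebraMap B L)).toAlgebra
  have t1 : IsScalarTower B L M := IsScalarTower.of_algebraMap_eq' rfl
  let C := integralClosure B M
  have hfin : Module.Finite B C := Groth.Agent.CalgA.NagataFinite.finite_integralClosure_of_isNagata hB B L M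
  have hCN : CAlg.IsNagata C := Groth.Agent.CalgA.NagataFinite.isNagata_of_finite hB C
  have hnoeth : IsNoetherianRing C := hCN.1
  have hfrac : IsFractionRing C M := integralClosure.isFractionRing_of_finite_extension L M
  have hic : IsIntegrallyClosed C := integralClosure.isIntegrallyClosedOfFiniteExtension L
  have hdim : Ring.DimensionLEOne C := Ring.DimensionLEOne.integralClosure B M
  have hded : IsDedekindDomain C := { toIsDomain := inferInstance, toIsDedekindRing := { } }
  have hinj : Function.Injective (algebraMap B M) := by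
    show Function.Injective ((algebraMap L M).comp (algebraMap B L))
    exact (algebraMap L M).injective.comp (IsFractionRing.injective B L)
  let i2 : Algebra C V := (Groth.Agent.Etalg.RamDict.toV C hV.1).toAlgebra
  have hloc : IsLocalization.AtPrime V (Groth.Agent.Etalg.RamDict.center C hV.1) :=
    Groth.Agent.Etalg.RamDict.isLocalization_atPrime C hinj hV
  exact Groth.Agent.Ega4B.NagBasic.isNagata_localization hCN
    (Groth.Agent.Etalg.RamDict.center C hV.1).primeCompl V

variable {Ω : Type u} [Field Ω] {O : ValuationSubring Ω}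

/-- `O ∩ M` is finite over `O ∩ M₀` if `O ∩ M₀` is Nagata and `M ^ p ⊆ M₀`. -/
theorem finite_incl (M₀ M : Subfield Ω) (h : M₀ ≤ M)
    (hfd : @FiniteDimensional M₀ M _ _ (Subfield.inclusion h).toAlgebra.toModule)
    (hN : CAlg.IsNagata (VR O M₀)) (p : ℕ) (hp : 0 < p) (hpow : ∀ x ∈ M, x ^ p ∈ M₀) :
    (incl (O := O) h).Finite := by
  let i1 : Algebra M₀ M := (Subfield.inclusion h).toAlgebra
  let i2 : Algebra (VR O M₀) (VR O M) := (incl (O := O) h).toAlgebra
  let i3 : Algebra (VR O M₀) M := ((VR O M).subtype.comp (incl (O := O) h)).toAlgebra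
  have t1 : IsScalarTower (VR O M₀) (VR O M) M := IsScalarTower.of_algebraMap_eq' rfl
  have t2 : IsScalarTower (VR O M₀) M₀ M := IsScalarTower.of_algebraMap_eq' rfl
  have hfd' : FiniteDimensional M₀ M := hfd
  have hnoeth : IsNoetherianRing (VR O M₀) := hN.1
  have hfin : Module.Finite (VR O M₀) (integralClosure (VR O M₀) M) :=
    Groth.Agent.CalgA.NagataFinite.finite_integralClosure_of_isNagata hN (VR O M₀) M₀ M
  have hint : ∀ x : VR O M, IsIntegral (VR O M₀) (x : M) := by
    intro x
    refine IsIntegral.of_pow hp ?_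
    have h1 : ((x : M) : Ω) ^ p ∈ M₀ := hpow _ (x : M).2
    have h2 : ((x : M) : Ω) ^ p ∈ O := pow_mem x.2 p
    have h3 : (x : M) ^ p = algebraMap (VR O M₀) M ⟨⟨((x : M) : Ω) ^ p, h1⟩, h2⟩ := Subtype.ext rfl
    rw [h3]
    exact isIntegral_algebraMap
  let φ : VR O M →ₗ[VR O M₀] integralClosure (VR O M₀) M :=
    { toFun := fun x => ⟨x, hint x⟩
      map_add' := fun _ _ => rfl
      map_smul' := fun r x => by
        apply Subtype.ext
        show ((r • x : VR O M) : M) = r • (x : M)
        rw [Algebra.smul_def, Algebra.smul_def]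
        rfl }
  have hφ : Function.Injective φ := fun x y hxy =>
    Subtype.ext (congrArg (fun z : integralClosure (VR O M₀) M => (z : M)) hxy)
  show Module.Finite (VR O M₀) (VR O M)
  exact Module.Finite.of_injective φ hφ

/-- The conductor exponent. -/
theorem exists_conductor (M₀ M : Subfield Ω) (h : M₀ ≤ M) [IsDiscreteValuationRing (VR O M₀)] (π : VR O M₀)
    (hπ0 : π ≠ 0) (hπ : π ∈ maximalIdeal (VR O M₀)) (p : ℕ) (b : Ω)
    (hgen : ∀ x ∈ M, ∃ P : M₀[X], P.degree < p ∧ P.eval₂ M₀.subtype b = x)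
    (hfin : (incl (O := O) h).Finite) :
    ∃ c : ℕ, ∀ y : VR O M, ∃ P : (VR O M₀)[X], P.degree < p ∧
      P.eval₂ (toΩ O M₀) b = toΩ O M₀ π ^ c * toΩ O M y := by
  classical
  let i2 : Algebra (VR O M₀) (VR O M) := (incl (O := O) h).toAlgebra
  have hfin' : Module.Finite (VR O M₀) (VR O M) := hfin
  obtain ⟨s, hs⟩ := hfin'.fg_top
  have h1 : ∀ y : VR O M, ∃ (k : ℕ) (P : (VR O M₀)[X]), P.degree < p ∧
      P.eval₂ (toΩ O M₀) b = toΩ O M₀ π ^ k * toΩ O M y := by
    intro y
    obtain ⟨Q, hQd, hQ⟩ := hgen (toΩ O M y) (y : M).2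
    obtain ⟨k, P, hP⟩ := exists_clear_poly (D := VR O M₀) (F := M₀) hπ Q
    refine ⟨k, P, ?_, ?_⟩
    · have h2 : (P.map (algebraMap (VR O M₀) M₀)).degree = P.degree :=
        degree_map_eq_of_injective Subtype.val_injective P
      rw [← h2, ← hP, degree_C_mul (a := algebraMap (VR O M₀) M₀ π ^ k)
        (pow_ne_zero k fun h0 => hπ0 (Subtype.ext h0))]
      exact hQd
    · have h3 := congrArg (eval₂ M₀.subtype b) hP
      rw [eval₂_mul, eval₂_C, eval₂_map, hQ, map_pow] at h3
      exact h3.symm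
  choose k P hPd hP using h1
  refine ⟨s.sup k, ?_⟩
  let T : Submodule (VR O M₀) (VR O M) :=
    { carrier := {y | ∃ P : (VR O M₀)[X], P.degree < p ∧
        P.eval₂ (toΩ O M₀) b = toΩ O M₀ π ^ (s.sup k) * toΩ O M y}
      zero_mem' := by
        refine ⟨0, ?_, ?_⟩
        · rw [degree_zero]; exact WithBot.bot_lt_coe _
        · rw [eval₂_zero, map_zero, mul_zero]
      add_mem' := by
        rintro y z ⟨P, hP, hP'⟩ ⟨Q, hQ, hQ'⟩
        refine ⟨P + Q, lt_of_le_of_lt (degree_add_le _ _) (max_lt hP hQ), ?_⟩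
        rw [eval₂_add, hP', hQ', map_add, mul_add]
      smul_mem' := by
        rintro r y ⟨P, hP, hP'⟩
        refine ⟨C r * P, ?_, ?_⟩
        · by_cases hr : r = 0
          · rw [hr, C_0, zero_mul, degree_zero]; exact WithBot.bot_lt_coe _
          · rwa [degree_C_mul hr]
        · rw [eval₂_mul, eval₂_C, hP', Algebra.smul_def, map_mul]
          have h4 : toΩ O M (algebraMap (VR O M₀) (VR O M) r) = toΩ O M₀ r := rfl
          rw [h4]
          ring }
  have hT : ⊤ ≤ T := by
    rw [← hs, Submodule.span_le]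
    intro y hy
    refine ⟨C (π ^ (s.sup k - k y)) * P y, ?_, ?_⟩
    · rw [degree_C_mul (pow_ne_zero _ hπ0)]; exact hPd y
    · rw [eval₂_mul, eval₂_C, hP y, map_pow, ← mul_assoc, ← pow_add, Nat.sub_add_cancel (Finset.le_sup hy)]
  intro y
  exact hT (Submodule.mem_top : y ∈ ⊤)

/-- Elements of `F(b)` are polynomials in `b`. -/
theorem exists_poly (F G : Subfield Ω) (b : Ω) (hb : IsIntegral F b)
    (hG : ∀ H : Subfield Ω, F ≤ H → b ∈ H → G ≤ H) (x : Ω) (hx : x ∈ G) :
    ∃ P : F[X], P.eval₂ F.subtype b = x := by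
  have h1 : x ∈ (IntermediateField.adjoin F {b}).toSubfield := by
    apply hG _ _ _ hx
    · intro y hy
      exact (IntermediateField.adjoin F {b}).algebraMap_mem ⟨y, hy⟩
    · exact IntermediateField.mem_adjoin_simple_self F b
  have h2 : x ∈ (IntermediateField.adjoin F {b}).toSubalgebra := h1
  rw [IntermediateField.adjoin_simple_toSubalgebra_of_isAlgebraic hb.isAlgebraic,
    Algebra.adjoin_singleton_eq_range_aeval] at h2
  obtain ⟨P, hP⟩ := h2
  exact ⟨P, hP⟩

theorem exists_poly_lt (F G : Subfield Ω) (b : Ω) (g : F[X]) (hg : g.Monic) (hgb : g.eval₂ F.subtype b = 0)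
    (hG : ∀ H : Subfield Ω, F ≤ H → b ∈ H → G ≤ H) (x : Ω) (hx : x ∈ G) :
    ∃ P : F[X], P.degree < g.degree ∧ P.eval₂ F.subtype b = x := by
  obtain ⟨P, hP⟩ := exists_poly F G b ⟨g, hg, hgb⟩ hG x hx
  refine ⟨P %ₘ g, degree_modByMonic_lt _ hg, ?_⟩
  conv_rhs => rw [← hP, ← modByMonic_add_div P g]
  rw [eval₂_add, eval₂_mul, hgb, zero_mul, add_zero]

/-- If `b ∉ F`, `b ^ p ∈ F`, then `b` has degree `p` over `F`. -/
theorem eq_zero_of_degree_lt (F : Subfield Ω) (p : ℕ) (hp : p.Prime) [CharP Ω p] (b : Ω) (hbF : b ∉ F) (a : F)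
    (hb : b ^ p = a) (P : F[X]) (hP : P.degree < p) (hPb : P.eval₂ F.subtype b = 0) : P = 0 := by
  have : Fact p.Prime := ⟨hp⟩
  have : ExpChar Ω p := ExpChar.prime hp
  have hirr : Irreducible (X ^ p - C a : F[X]) := by
    refine X_pow_sub_C_irreducible_of_prime hp fun y hy => hbF ?_
    have h1 : ((y : Ω) - b) ^ p = 0 := by
      rw [sub_pow_expChar, hb, ← hy]
      push_cast
      ring
    have h2 : (y : Ω) - b = 0 := pow_eq_zero_iff hp.ne_zero |>.mp h1
    rw [← sub_eq_zero.mp h2]
    exact y.2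
  have hmon : (X ^ p - C a : F[X]).Monic := monic_X_pow_sub_C a hp.ne_zero
  have hmin : minpoly F b = X ^ p - C a := by
    refine (minpoly.eq_of_irreducible_of_monic hirr ?_ hmon).symm
    rw [map_sub, map_pow, aeval_X, aeval_C, hb]
    exact sub_self _
  by_contra hP0
  have h3 := minpoly.degree_le_of_ne_zero F b hP0 hPb
  rw [hmin, degree_X_pow_sub_C hp.pos] at h3
  exact absurd hP (not_lt.mpr h3)

end Groth.Agent.Etalg2.H529.NagataVal
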