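import Groth.Agent.Etalg2.H529.AdjData
import Groth.Agent.Etalg2.H529.Analysis
import Groth.Agent.Etalg.RamBasic
import Mathlib.RingTheory.Valuation.ValuationSubring
import Mathlib.RingTheory.DedekindDomain.Basic

/-!
# Deforming a purely inseparable extension of degree `p` inside a big valued field

`O` is a valuation subring of `Ω`, `F ⊆ Ω` a subfield with `O ∩ F` a discrete valuation ring, `b ^ p = a`,
`b' ^ p = π ^ N b' + a`.  We compare `O ∩ F(b)` and `O ∩ F(b')` modulo `π ^ 2`.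
-/

set_option autoImplicit false
universe u

open IsLocalRing Polynomial

namespace Groth.Agent.Etalg2.H529.OneLevel

variable {Ω : Type u} [Field Ω] (O : ValuationSubring Ω)

/-- The valuation ring of a subfield. -/
abbrev VR (G : Subfield Ω) : ValuationSubring G := O.comap G.subtype

/-- The map to the big field. -/
abbrev toΩ (G : Subfield Ω) : VR O G →+* Ω := G.subtype.comp (VR O G).subtype

variable {O}

theorem toΩ_injective (G : Subfield Ω) : Function.Injective (toΩ O G) := fun _ _ h =>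
  Subtype.ext (Subtype.ext h)

theorem mem_VR {G : Subfield Ω} (x : G) : x ∈ VR O G ↔ (x : Ω) ∈ O := Iff.rfl

theorem toΩ_mem {G : Subfield Ω} (x : VR O G) : toΩ O G x ∈ O := x.2

/-- The inclusion of valuation rings. -/
def incl {F G : Subfield Ω} (h : F ≤ G) : VR O F →+* VR O G :=
  ((Subfield.inclusion h).comp (VR O F).subtype).codRestrict (VR O G) (fun x => x.2)

@[simp] theorem toΩ_incl {F G : Subfield Ω} (h : F ≤ G) (x : VR O F) : toΩ O G (incl h x) = toΩ O F x := rfl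

theorem mem_maximalIdeal_iff {G : Subfield Ω} (x : VR O G) :
    x ∈ maximalIdeal (VR O G) ↔ O.valuation (toΩ O G x) < 1 := by
  rw [ValuationSubring.valuation_lt_one_iff,
    Groth.Agent.Etalg.RamBasic.valuation_comap_lt_one_iff]
  rfl

theorem isUnit_iff {G : Subfield Ω} (x : VR O G) : IsUnit x ↔ O.valuation (toΩ O G x) = 1 := by
  have h1 := mem_maximalIdeal_iff x
  rw [mem_maximalIdeal, mem_nonunits_iff] at h1
  have h2 : O.valuation (toΩ O G x) ≤ 1 := (O.valuation_le_one_iff _).mpr (toΩ_mem x)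
  rw [← not_iff_not, h1, lt_iff_le_and_ne]
  exact ⟨fun h => h.2, fun h => ⟨h2, h⟩⟩

instance isLocalHom_incl {F G : Subfield Ω} (h : F ≤ G) : IsLocalHom (incl (O := O) h) := by
  refine ⟨fun x hx => ?_⟩
  rw [isUnit_iff] at hx ⊢
  exact hx

/-- Clearing denominators. -/
theorem exists_clear {D F : Type u} [CommRing D] [IsDomain D] [IsDiscreteValuationRing D] [Field F]
    [Algebra D F] [IsFractionRing D F] {π : D} (hπ : π ∈ maximalIdeal D) (x : F) :
    ∃ (k : ℕ) (d : D), algebraMap D F π ^ k * x = algebraMap D F d := by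
  by_cases hπ0 : π = 0
  · exact ⟨1, 0, by simp [hπ0]⟩
  obtain ⟨ϖ, hϖ⟩ := IsDiscreteValuationRing.exists_irreducible D
  obtain ⟨n, d, hd, rfl⟩ := IsFractionRing.div_surjective D x
  have hd0 : d ≠ 0 := nonZeroDivisors.ne_zero hd
  obtain ⟨k, u, rfl⟩ := IsDiscreteValuationRing.eq_unit_mul_pow_irreducible hd0 hϖ
  have h1 : ϖ ∣ π := by
    rw [← Ideal.mem_span_singleton, ← (IsDiscreteValuationRing.irreducible_iff_uniformizer ϖ).mp hϖ]
    exact hπ
  obtain ⟨s, rfl⟩ := h1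
  refine ⟨k, s ^ k * ↑(u⁻¹ : Dˣ) * n, ?_⟩
  have hne : algebraMap D F (u * ϖ ^ k) ≠ 0 := (map_ne_zero_iff _ (IsFractionRing.injective D F)).mpr hd0
  rw [mul_div_assoc', div_eq_iff hne, ← map_pow, ← map_mul, ← map_mul]
  congr 1
  have : (↑(u⁻¹ : Dˣ) : D) * u = 1 := Units.inv_mul u
  linear_combination (-(s ^ k * n * ϖ ^ k)) * this

theorem exists_clear_poly {D F : Type u} [CommRing D] [IsDomain D] [IsDiscreteValuationRing D] [Field F]
    [Algebra D F] [IsFractionRing D F] {π : D} (hπ : π ∈ maximalIdeal D) (Q : F[X]) :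
    ∃ (k : ℕ) (P : D[X]), C (algebraMap D F π ^ k) * Q = P.map (algebraMap D F) := by
  induction Q using Polynomial.induction_on' with
  | add Q₁ Q₂ h₁ h₂ =>
    obtain ⟨k₁, P₁, h₁⟩ := h₁
    obtain ⟨k₂, P₂, h₂⟩ := h₂
    refine ⟨k₁ + k₂, C (π ^ k₂) * P₁ + C (π ^ k₁) * P₂, ?_⟩
    rw [Polynomial.map_add, Polynomial.map_mul, Polynomial.map_mul, Polynomial.map_C, Polynomial.map_C, ← h₁, ← h₂]
    simp only [pow_add, C_mul, C_pow, RingHom.map_pow]
    ring
  | monomial n a =>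
    obtain ⟨k, d, hd⟩ := exists_clear (D := D) hπ a
    exact ⟨k, monomial n d, by rw [map_monomial, ← hd, C_mul_monomial]⟩

theorem exists_comparison (F G₁ G₂ : Subfield Ω) (hF₁ : F ≤ G₁) (hF₂ : F ≤ G₂)
    [IsDiscreteValuationRing (VR O F)] (π a : VR O F) (hπ0 : π ≠ 0) (hπ : π ∈ maximalIdeal (VR O F))
    (p : ℕ) (hp : 2 ≤ p) (b b' : Ω) (hbG : b ∈ G₁) (hbG' : b' ∈ G₂) (hb : b ^ p = toΩ O F a)
    (N c : ℕ) (hN : 2 * c + 2 ≤ N) (hb' : b' ^ p = toΩ O F π ^ N * b' + toΩ O F a)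
    (hinj : ∀ P : F[X], P.degree < p → P.eval₂ F.subtype b = 0 → P = 0)
    (hgen : ∀ x ∈ G₂, ∃ P : F[X], P.eval₂ F.subtype b' = x)
    (hc : ∀ y : VR O G₁, ∃ P : (VR O F)[X], P.eval₂ (toΩ O F) b = toΩ O F π ^ c * toΩ O G₁ y)
    (t₁ : VR O G₁) (ht₁ : maximalIdeal (VR O G₁) = Ideal.span {t₁}) :
    ∃ Φ : VR O G₂ →+* VR O G₁ ⧸ Ideal.span {incl hF₁ π ^ 2}, Function.Surjective Φ ∧
      (∀ x, Φ x = 0 ↔ ∃ z, x = incl hF₂ π ^ 2 * z) ∧
      (∀ (P : (VR O F)[X]) (y : VR O G₁), P.eval₂ (toΩ O F) b = toΩ O F π ^ c * toΩ O G₁ y →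
        ∃ x : VR O G₂, P.eval₂ (toΩ O F) b' = toΩ O F π ^ c * toΩ O G₂ x ∧ Φ x = Ideal.Quotient.mk _ y) := by
  have hp0 : p ≠ 0 := by omega
  have hbO : b ∈ O := by
    have h1 : b ^ p ∈ O := by rw [hb]; exact toΩ_mem a
    rw [← ValuationSubring.valuation_le_one_iff, map_pow] at h1
    rw [← ValuationSubring.valuation_le_one_iff]
    exact (pow_le_one_iff hp0).mp h1
  let β : VR O G₁ := ⟨⟨b, hbG⟩, hbO⟩
  have hβΩ : toΩ O G₁ β = b := rfl
  let g₁ : (VR O F)[X] := X ^ p - C a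
  let g₂ : (VR O F)[X] := X ^ p - C (π ^ N) * X - C a
  have hg : g₁ = g₂ + C (π ^ N) * X := by simp only [g₁, g₂]; ring
  have hm₁ : g₁.Monic := monic_X_pow_sub_C a hp0
  have hm₂ : g₂.Monic := by
    have h1 : g₂ = X ^ p - (C (π ^ N) * X + C a) := by simp only [g₂]; ring
    rw [h1]
    refine monic_X_pow_sub ?_
    refine lt_of_le_of_lt degree_linear_le ?_
    exact_mod_cast (by omega : 1 < p)
  have hdeg₁ : g₁.degree = p := degree_X_pow_sub_C (by omega) a
  have hβ0 : g₁.eval₂ (incl hF₁) β = 0 := by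
    apply toΩ_injective
    rw [hom_eval₂, map_zero]
    simp only [g₁, eval₂_sub, eval₂_X_pow, eval₂_C]
    change b ^ p - toΩ O F a = 0
    rw [hb, sub_self]
  have hcomp1 : (toΩ O G₁).comp (incl hF₁) = toΩ O F := RingHom.ext fun x => rfl
  have hcomp2 : (toΩ O G₂).comp (incl hF₂) = toΩ O F := RingHom.ext fun x => rfl
  have hev : ∀ P : (VR O F)[X], toΩ O G₁ (P.eval₂ (incl hF₁) β) = P.eval₂ (toΩ O F) b := by
    intro P
    rw [hom_eval₂, hcomp1]
    rfl
  have hd := AdjData.data (VR O F).subtype (incl hF₁) π N c g₁ g₂ X β Subtype.val_injective hm₁ hm₂ hg hπ0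
    (fun h0 => hπ0 (toΩ_injective F (by
      rw [map_zero, ← hcomp1, RingHom.comp_apply, h0, map_zero]))) hβ0
    (fun P hP h0 => by
      have h1 : (P.map (VR O F).subtype).eval₂ F.subtype b = 0 := by
        rw [eval₂_map]
        have := hev P
        rw [h0, map_zero] at this
        exact this.symm
      have h2 := hinj (P.map (VR O F).subtype) (by
        rw [degree_map_eq_of_injective Subtype.val_injective]
        rwa [hdeg₁] at hP) h1
      exact (Polynomial.map_eq_zero_iff Subtype.val_injective).mp h2)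
    (fun y => by
      obtain ⟨P, hP⟩ := hc y
      refine ⟨P, ?_⟩
      apply toΩ_injective
      rw [hev, hP, map_mul, map_pow, toΩ_incl]) hN
  -- the polynomial over the field
  let C₂ := AdjoinRoot g₂
  let M₂ := AdjoinRoot (g₂.map (VR O F).subtype)
  have hfin : Module.Finite (VR O F) C₂ := hm₂.finite_adjoinRoot
  have hm₂' : (g₂.map (VR O F).subtype).Monic := hm₂.map _
  have hdeg₂ : g₂.degree = p := by
    have h1 : g₂ = X ^ p - (C (π ^ N) * X + C a) := by simp only [g₂]; ring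
    rw [h1]
    rw [degree_sub_eq_left_of_degree_lt, degree_X_pow]
    rw [degree_X_pow]
    refine lt_of_le_of_lt degree_linear_le ?_
    exact_mod_cast (by omega : 1 < p)
  have hnt : Nontrivial M₂ := by
    apply AdjoinRoot.nontrivial
    rw [degree_map_eq_of_injective Subtype.val_injective, hdeg₂]
    exact_mod_cast hp0
  have hι₁π : AdjoinRoot.lift (incl hF₁) β hβ0 (AdjoinRoot.of g₁ π) = incl hF₁ π := AdjoinRoot.lift_of _
  have hιm : AdjoinRoot.lift (incl hF₁) β hβ0 (AdjoinRoot.of g₁ π) ∈ maximalIdeal (VR O G₁) := by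
    rw [hι₁π, mem_maximalIdeal_iff, toΩ_incl, ← mem_maximalIdeal_iff]
    exact hπ
  obtain ⟨t₂, ht₂⟩ := Transfer.comparison_surjective hd (Ideal.Quotient.mk _ t₁)
  obtain ⟨hdom, hdvr, hmax⟩ := Analysis.isDVR (D := VR O F) hd hπ (by
    rw [AdjoinRoot.algebraMap_eq]) hιm ht₁ ht₂
  -- the map to `G₂`
  let ψ : M₂ →+* G₂ := AdjoinRoot.lift (Subfield.inclusion hF₂) ⟨b', hbG'⟩ (by
    apply Subtype.ext
    rw [eval₂_map]
    have h2 : ((g₂.eval₂ ((Subfield.inclusion hF₂).comp (VR O F).subtype) (⟨b', hbG'⟩ : G₂) : G₂) : Ω) =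
        g₂.eval₂ (toΩ O F) b' := hom_eval₂ g₂ _ G₂.subtype _
    refine h2.trans ?_
    simp only [g₂, eval₂_sub, eval₂_X_pow, eval₂_C, eval₂_mul, eval₂_X]
    rw [hb', RingHom.map_pow]
    simp)
  have hψmk : ∀ P : F[X], ((ψ (AdjoinRoot.mk _ P) : G₂) : Ω) = P.eval₂ F.subtype b' := by
    intro P
    have h1 : ψ (AdjoinRoot.mk _ P) = P.eval₂ (Subfield.inclusion hF₂) (⟨b', hbG'⟩ : G₂) := AdjoinRoot.lift_mk _ _
    rw [h1]
    exact hom_eval₂ P _ G₂.subtype _
  have hψι : ∀ P : (VR O F)[X], ((ψ (AdjoinRoot.map (VR O F).subtype g₂ (g₂.map _) dvd_rfl (AdjoinRoot.mk g₂ P)) : G₂) : Ω) =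
      P.eval₂ (toΩ O F) b' := by
    intro P
    rw [AdjData.map_mk, hψmk, eval₂_map]
  have hψof : ∀ x : F, ((ψ (AdjoinRoot.of _ x) : G₂) : Ω) = x := by
    intro x
    rw [← AdjoinRoot.mk_C, hψmk, eval₂_C]
    rfl
  have hψO : ∀ x : Transfer.ring hd, ψ (x : M₂) ∈ VR O G₂ := by
    intro x
    have h1 := (Analysis.finite (D := VR O F) hd).to_isIntegral x
    refine Groth.Agent.Etalg.DVRExt.mem_of_isIntegralElem (VR O G₂)
      (((ψ.comp (Transfer.ring hd).subtype)).comp ((Analysis.incl hd).comp (algebraMap (VR O F) C₂))) ?_ ?_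
    · intro d
      have h2 : ((ψ.comp (Transfer.ring hd).subtype)).comp ((Analysis.incl hd).comp (algebraMap (VR O F) C₂)) d =
        ψ (AdjoinRoot.map (VR O F).subtype g₂ (g₂.map _) dvd_rfl (AdjoinRoot.of g₂ d)) := rfl
      rw [h2, mem_VR]
      rw [← AdjoinRoot.mk_C, hψι, eval₂_C]
      exact toΩ_mem d
    · obtain ⟨q, hq, hqx⟩ := h1
      refine ⟨q, hq, ?_⟩
      exact (hom_eval₂ q _ (ψ.comp (Transfer.ring hd).subtype) x).symm.trans (by rw [hqx, map_zero])
  let θ : Transfer.ring hd →+* VR O G₂ := (ψ.comp (Transfer.ring hd).subtype).codRestrict (VR O G₂) hψO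
  have hθ : ∀ x, ((θ x : VR O G₂) : G₂) = ψ (x : M₂) := fun x => rfl
  have hθπ : θ (Transfer.pi hd) = incl hF₂ π := by
    apply toΩ_injective
    show ((ψ (AdjoinRoot.map (VR O F).subtype g₂ (g₂.map _) dvd_rfl (AdjoinRoot.of g₂ π)) : G₂) : Ω) = _
    rw [← AdjoinRoot.mk_C, hψι, eval₂_C]
    rfl
  have hπΩ : toΩ O F π ≠ 0 := fun h0 => hπ0 (toΩ_injective F (by rw [h0, map_zero]))
  have hθinj : Function.Injective θ := by
    rw [injective_iff_map_eq_zero]
    intro x hx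
    by_contra hx0
    -- a nonzero ideal contains a power of the uniformizer, hence of `π`
    have hϖ : Irreducible t₂ := (IsDiscreteValuationRing.irreducible_iff_uniformizer t₂).mpr hmax
    obtain ⟨k, u, rfl⟩ := IsDiscreteValuationRing.eq_unit_mul_pow_irreducible hx0 hϖ
    rw [map_mul, map_pow] at hx
    have h3 : θ t₂ ^ k = 0 := ((u.isUnit.map θ).mul_right_eq_zero).mp hx
    have h4 : θ t₂ = 0 := eq_zero_of_pow_eq_zero h3
    have h5 : Transfer.pi hd ∈ maximalIdeal (Transfer.ring hd) := by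
      rw [mem_maximalIdeal, mem_nonunits_iff, Analysis.isUnit_iff (D := VR O F) hd hπ
        (by rw [AdjoinRoot.algebraMap_eq]) hιm (Transfer.comparison_pi hd)]
      exact hιm
    rw [hmax, Ideal.mem_span_singleton] at h5
    obtain ⟨s, hs⟩ := h5
    have h6 : θ (Transfer.pi hd) = 0 := by rw [hs, map_mul, h4, zero_mul]
    rw [hθπ] at h6
    apply hπΩ
    rw [← toΩ_incl hF₂, h6, map_zero]
  have hθsurj : Function.Surjective θ := by
    intro x
    have key := Groth.Agent.Etalg.DVRExt.exists_eq_of_local (R := Transfer.ring hd) (M := G₂)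
      (ψ.comp (Transfer.ring hd).subtype) (VR O G₂) ?_ ?_ (x : G₂) x.2
    · obtain ⟨r, hr⟩ := key
      exact ⟨r, Subtype.ext hr⟩
    · intro r hr
      -- the trace of the maximal ideal is a nonzero prime
      have h1 : ((maximalIdeal (VR O G₂)).comap θ).IsPrime := inferInstance
      have h2 : Transfer.pi hd ∈ (maximalIdeal (VR O G₂)).comap θ := by
        rw [Ideal.mem_comap, hθπ, mem_maximalIdeal_iff, toΩ_incl, ← mem_maximalIdeal_iff]
        exact hπ
      have hpi0 : Transfer.pi hd ≠ 0 := by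
        intro h0
        have := hθπ
        rw [h0, map_zero] at this
        apply hπΩ
        rw [← toΩ_incl hF₂, ← this, map_zero]
      have h3 : (maximalIdeal (VR O G₂)).comap θ ≠ ⊥ := fun h0 => hpi0 (by rw [h0] at h2; exact h2)
      have h4 : ((maximalIdeal (VR O G₂)).comap θ).IsMaximal := h1.isMaximal h3
      have h5 := IsLocalRing.eq_maximalIdeal h4
      rw [← h5] at hr
      have h6 : θ r ∈ maximalIdeal (VR O G₂) := hr
      exact (ValuationSubring.valuation_lt_one_iff _ _).mp h6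
    · intro y
      obtain ⟨Q, hQ⟩ := hgen y y.2
      obtain ⟨k, P, hP⟩ := exists_clear_poly (D := VR O F) (F := F) hπ Q
      refine ⟨Analysis.incl hd (AdjoinRoot.mk g₂ P), Transfer.pi hd ^ k, ?_, ?_⟩
      · rw [map_pow]
        apply pow_ne_zero
        intro h0
        have h1 : θ (Transfer.pi hd) = 0 := Subtype.ext h0
        rw [hθπ] at h1
        apply hπΩ
        rw [← toΩ_incl hF₂, h1, map_zero]
      · apply Subtype.ext
        show (y : Ω) * ((((ψ.comp (Transfer.ring hd).subtype) (Transfer.pi hd ^ k)) : G₂) : Ω) =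
          ((ψ (AdjoinRoot.map (VR O F).subtype g₂ (g₂.map _) dvd_rfl (AdjoinRoot.mk g₂ P)) : G₂) : Ω)
        rw [hψι]
        have h7 : ((((ψ.comp (Transfer.ring hd).subtype) (Transfer.pi hd ^ k)) : G₂) : Ω) = toΩ O F π ^ k := by
          rw [map_pow]
          have h8 : (((ψ.comp (Transfer.ring hd).subtype) (Transfer.pi hd) : G₂) : Ω) = toΩ O F π :=
            congrArg (toΩ O G₂) hθπ
          rw [← h8]
          rfl
        rw [h7, ← hQ]
        have h9 := congrArg (eval₂ F.subtype b') hP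
        rw [eval₂_mul, eval₂_C, eval₂_map] at h9
        have h10 : P.eval₂ (toΩ O F) b' = P.eval₂ (F.subtype.comp (algebraMap (VR O F) F)) b' := rfl
        rw [h10, ← h9, mul_comm, map_pow]
        rfl
  let e : Transfer.ring hd ≃+* VR O G₂ := RingEquiv.ofBijective θ ⟨hθinj, hθsurj⟩
  have he : ∀ x, e x = θ x := fun x => rfl
  have hideal : Ideal.span {AdjoinRoot.lift (incl hF₁) β hβ0 (AdjoinRoot.of g₁ π) ^ 2} =
      Ideal.span {incl hF₁ π ^ 2} := by rw [hι₁π]
  let q : (VR O G₁ ⧸ Ideal.span {AdjoinRoot.lift (incl hF₁) β hβ0 (AdjoinRoot.of g₁ π) ^ 2}) ≃+*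
      (VR O G₁ ⧸ Ideal.span {incl hF₁ π ^ 2}) := Ideal.quotEquivOfEq hideal
  refine ⟨(q.toRingHom.comp (Transfer.comparison hd)).comp e.symm.toRingHom, ?_, ?_, ?_⟩
  · exact (q.surjective.comp (Transfer.comparison_surjective hd)).comp e.symm.surjective
  · intro x
    have h1 : ((q.toRingHom.comp (Transfer.comparison hd)).comp e.symm.toRingHom) x = 0 ↔
        Transfer.comparison hd (e.symm x) = 0 := by
      show q (Transfer.comparison hd (e.symm x)) = 0 ↔ _
      exact map_eq_zero_iff q q.injective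
    rw [h1, Analysis.mem_ker_iff]
    constructor
    · rintro ⟨z, hz⟩
      refine ⟨θ z, ?_⟩
      rw [← e.apply_symm_apply x, hz, he, map_mul, map_pow, hθπ]
    · rintro ⟨z, rfl⟩
      refine ⟨e.symm z, ?_⟩
      apply e.injective
      rw [e.apply_symm_apply, map_mul, map_pow, e.apply_symm_apply, he, hθπ]
  · intro P y hPy
    have hu := hd.unit₂.pow c
    obtain ⟨u, hu⟩ := hu
    let x₂ : M₂ := (u⁻¹ : M₂ˣ) * AdjoinRoot.map (VR O F).subtype g₂ (g₂.map _) dvd_rfl (AdjoinRoot.mk g₂ P)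
    have hx₂ : AdjoinRoot.map (VR O F).subtype g₂ (g₂.map _) dvd_rfl (AdjoinRoot.mk g₂ P) =
        AdjoinRoot.map (VR O F).subtype g₂ (g₂.map _) dvd_rfl (AdjoinRoot.of g₂ π) ^ c * x₂ := by
      rw [← hu]
      exact (Units.mul_inv_cancel_left u _).symm
    have hrel : Transfer.Rel (AdjoinRoot.lift (incl hF₁) β hβ0)
        (AdjoinRoot.map (VR O F).subtype g₂ (g₂.map (VR O F).subtype) dvd_rfl) (AdjoinRoot.of g₁ π)
        (AdjoinRoot.of g₂ π) c N (AdjData.f π N g₁ g₂ X hg) x₂ y := by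
      refine ⟨AdjoinRoot.mk g₂ P, AdjoinRoot.mk g₁ P, hx₂, ?_, AdjData.f_mk π N g₁ g₂ X hg P⟩
      rw [hι₁π, AdjoinRoot.lift_mk]
      apply toΩ_injective
      rw [hev, hPy, map_mul, map_pow, toΩ_incl]
    let x₃ : Transfer.ring hd := ⟨x₂, y, hrel⟩
    refine ⟨θ x₃, ?_, ?_⟩
    · rw [← hψι, hx₂, map_mul, map_pow]
      have h8 : ((ψ (AdjoinRoot.map (VR O F).subtype g₂ (g₂.map _) dvd_rfl (AdjoinRoot.of g₂ π)) : G₂) : Ω) =
          toΩ O F π := congrArg (toΩ O G₂) hθπ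
      show ((ψ (AdjoinRoot.map (VR O F).subtype g₂ (g₂.map _) dvd_rfl (AdjoinRoot.of g₂ π)) : G₂) : Ω) ^ c *
        ((ψ x₂ : G₂) : Ω) = _
      rw [h8]
      rfl
    · show q (Transfer.comparison hd (e.symm (θ x₃))) = _
      rw [← he, e.symm_apply_apply, Transfer.comparison_eq hd hrel]
      rfl

end Groth.Agent.Etalg2.H529.OneLevel
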