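import Groth.Agent.Etalg2.H529.Step
import Groth.Agent.Etalg.SolFinal

/-!
# From one good separable level to a separable solution
-/

set_option autoImplicit false
universe u

open IsLocalRing IntermediateField EtRam Groth.Agent.Etalg.RamBasic Groth.Agent.Etalg.ResInd
  Groth.Agent.Etalg.ResTop

namespace Groth.Agent.Etalg2.H529.SolSep

open OneLevel Step

variable {K L Ω : Type u} [Field K] [Field L] [Field Ω]
  [Algebra K L] [Algebra L Ω] [Algebra K Ω] [IsScalarTower K L Ω] {O : ValuationSubring Ω}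

theorem max_of_isUnif (G : Subfield Ω) (π : Ω) (hπG : π ∈ G) (hπO : π ∈ O) (h : IsUnif O (G : Set Ω) π) :
    maximalIdeal (VR O G) = Ideal.span {(⟨⟨π, hπG⟩, hπO⟩ : VR O G)} := by
  apply le_antisymm
  · intro x hx
    rw [mem_maximalIdeal_iff] at hx
    rw [Ideal.mem_span_singleton]
    have h1 : O.valuation (toΩ O G x) ≤ O.valuation π := h.le_of_lt_one (x : G).2 hx
    have h2 : toΩ O G x / π ∈ O := by
      rw [← ValuationSubring.valuation_le_one_iff, map_div₀]
      exact (div_le_one₀ h.pos).2 h1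
    refine ⟨⟨⟨toΩ O G x / π, G.div_mem (x : G).2 hπG⟩, h2⟩, ?_⟩
    apply toΩ_injective
    rw [map_mul]
    show toΩ O G x = π * (toΩ O G x / π)
    rw [mul_div_cancel₀ _ h.1]
  · rw [Ideal.span_singleton_le_iff_mem, mem_maximalIdeal_iff]
    exact h.2.1

theorem isUnif_of_max (G : Subfield Ω) [IsDiscreteValuationRing (VR O G)] (t : VR O G)
    (ht : maximalIdeal (VR O G) = Ideal.span {t}) : IsUnif O (G : Set Ω) (toΩ O G t) := by
  have hϖ : Irreducible t := (IsDiscreteValuationRing.irreducible_iff_uniformizer t).mpr ht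
  refine ⟨?_, ?_, ?_⟩
  · intro h0
    exact hϖ.ne_zero (toΩ_injective G (by rw [h0, map_zero]))
  · rw [← mem_maximalIdeal_iff, ht]
    exact Ideal.mem_span_singleton_self t
  · intro x hx hx0
    have hx' : (⟨x, hx⟩ : G) ≠ 0 := fun h0 => hx0 (congrArg (fun y : G => (y : Ω)) h0)
    obtain ⟨n, u, hn⟩ := IsDiscreteValuationRing.exists_units_eq_smul_zpow_of_irreducible hϖ (K := G) hx'
    refine ⟨n, ?_⟩
    have h1 : x = toΩ O G (u : VR O G) * toΩ O G t ^ n := by
      have := congrArg (fun y : G => (y : Ω)) hn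
      rw [Units.smul_def, Algebra.smul_def] at this
      have h3 : ((algebraMap (VR O G) G (u : VR O G) * (algebraMap (VR O G) G t) ^ n : G) : Ω) =
        toΩ O G (u : VR O G) * toΩ O G t ^ n := by
        rw [Subfield.coe_mul]
        congr 1
      rw [← h3]
      exact this
    rw [h1, map_mul, map_zpow₀, (isUnit_iff (u : VR O G)).mp u.isUnit, one_mul]

theorem good_of_isUnif (E : IntermediateField K Ω) (π : Ω) (hπE : π ∈ E)
    (hπ : IsUnif O ((XL K L Ω ⊔ E : IntermediateField K Ω) : Set Ω) π)
    (f : E →+* (XL K L Ω ⊔ E : IntermediateField K Ω))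
    (hf : f = (IntermediateField.inclusion (le_sup_right : E ≤ XL K L Ω ⊔ E)).toRingHom)
    (hg : @Algebra.IsGeometricallyReduced
          (ResidueField ((O.comap (algebraMap (XL K L Ω ⊔ E : IntermediateField K Ω) Ω)).comap f))
          (ResidueField (O.comap (algebraMap (XL K L Ω ⊔ E : IntermediateField K Ω) Ω))) _ _
          (ResidueField.map (inclOfComap (O.comap (algebraMap (XL K L Ω ⊔ E : IntermediateField K Ω) Ω)) f)).toAlgebra) :
    Good L O E := by
  subst hf
  have hπO : π ∈ O := by
    rw [← ValuationSubring.valuation_le_one_iff]; exact hπ.2.1.le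
  refine ⟨⟨⟨π, hπE⟩, hπO⟩, max_of_isUnif E.toSubfield π hπE hπO (hπ.mono fun x hx =>
    (le_sup_right : E ≤ XL K L Ω ⊔ E) hx), ?_, ?_⟩
  · exact max_of_isUnif (XL K L Ω ⊔ E).toSubfield π ((le_sup_right : E ≤ XL K L Ω ⊔ E) hπE) hπO hπ
  · exact hg

/-- The normal closure of a finite separable extension is separable. -/
theorem isSeparable_normalClosure (E : IntermediateField K Ω) [Algebra.IsSeparable K E] :
    Algebra.IsSeparable K (normalClosure K E Ω) := by
  rw [← le_separableClosure_iff]
  refine normalClosure_le_iff.mpr fun f => ?_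
  rintro _ ⟨x, rfl⟩
  rw [mem_separableClosure_iff]
  have h1 := Algebra.IsSeparable.isSeparable K x
  have h2 : minpoly K (f x) = minpoly K x := minpoly.algHom_eq f f.injective x
  unfold IsSeparable at h1 ⊢
  show (minpoly K (f x)).Separable
  rwa [h2]

theorem isSolution_of_good {B K L Ω : Type u} [CommRing B] [IsDomain B] [IsDiscreteValuationRing B]
    [Field K] [Field L] [Field Ω] [Algebra K L] [Algebra B L] [IsFractionRing B L]
    [Algebra L Ω] [Algebra K Ω] [IsScalarTower K L Ω] [IsAlgClosed Ω]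
    (O : ValuationSubring Ω) (hO : Dominates B ((algebraMap L Ω).comp (algebraMap B L)) O)
    (E : IntermediateField K Ω) [FiniteDimensional K E] [hsepE : Algebra.IsSeparable K E]
    (M₀ : IntermediateField K Ω) (hM₀ : M₀ = (IsScalarTower.toAlgHom K L Ω).fieldRange ⊔ E)
    (f : E →+* M₀) (hf : ∀ x : E, ((f x : M₀) : Ω) = x) {π : Ω} (hπE : π ∈ E) (hπ : IsUnif O (M₀ : Set Ω) π)
    (hg : @Algebra.IsGeometricallyReduced (ResidueField ((O.comap (algebraMap M₀ Ω)).comap f))
          (ResidueField (O.comap (algebraMap M₀ Ω))) _ _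
          (ResidueField.map (inclOfComap (O.comap (algebraMap M₀ Ω)) f)).toAlgebra) :
    ∃ (K₁ : Type u) (_ : Field K₁) (_ : Algebra K K₁) (_ : FiniteDimensional K K₁)
      (_ : Algebra.IsSeparable K K₁), IsSolution B K L K₁ := by
  classical
  let N : IntermediateField K Ω := normalClosure K E Ω
  have hNfin : FiniteDimensional K N := inferInstance
  have hNclos : IsNormalClosure K E N :=
    Algebra.IsAlgebraic.isNormalClosure_normalClosure fun x => IsAlgClosed.splits _
  have hNnormal : Normal K N := hNclos.normal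
  have hEN : E ≤ N := le_normalClosure E
  have hEM₀ : E ≤ M₀ := by rw [hM₀]; exact le_sup_right
  let X : IntermediateField K Ω := (IsScalarTower.toAlgHom K L Ω).fieldRange
  let M : IntermediateField K Ω := X ⊔ N
  have hNM : N ≤ M := le_sup_right
  have hM₀M : M₀ ≤ M := by rw [hM₀]; exact sup_le_sup le_rfl hEN
  let g : N →+* M := (IntermediateField.inclusion hNM).toRingHom
  -- the algebra structures
  let i1 : Algebra E M₀ := f.toAlgebra
  let i2 : Algebra E N := (IntermediateField.inclusion hEN).toRingHom.toAlgebra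
  let i3 : Algebra E M := (IntermediateField.inclusion (hEN.trans hNM)).toRingHom.toAlgebra
  let i4 : Algebra M₀ M := (IntermediateField.inclusion hM₀M).toRingHom.toAlgebra
  let i5 : Algebra N M := g.toAlgebra
  have t1 : IsScalarTower E M₀ M := IsScalarTower.of_algebraMap_eq fun x => Subtype.ext (hf x).symm
  have t2 : IsScalarTower E N M := IsScalarTower.of_algebraMap_eq fun _ => rfl
  have t3 : IsScalarTower K E N := IsScalarTower.of_algebraMap_eq fun _ => rfl
  have hfin : FiniteDimensional E N := Module.Finite.of_restrictScalars_finite K E N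
  -- the valuation rings
  let B₀ : ValuationSubring M₀ := O.comap (algebraMap M₀ Ω)
  let A₀ : ValuationSubring E := B₀.comap f
  have hA₀ : A₀ = O.comap (algebraMap E Ω) := by
    ext x
    show ((f x : M₀) : Ω) ∈ O ↔ (x : Ω) ∈ O
    rw [hf]
  have hDE : IsDiscreteValuationRing (O.comap (algebraMap E Ω)) :=
    (isDVR_comap (algebraMap E Ω) ⟨π, hπE⟩ (by
      rw [Groth.Agent.Etalg.SolFinal.range_algebraMap]; exact hπ.mono fun x hx => hEM₀ hx)).1
  have dA : IsDiscreteValuationRing A₀ := by rw [hA₀]; exact hDE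
  have dB : IsDiscreteValuationRing B₀ :=
    (isDVR_comap (algebraMap M₀ Ω) ⟨π, hEM₀ hπE⟩ (by rw [Groth.Agent.Etalg.SolFinal.range_algebraMap]; exact hπ)).1
  let j1 : Algebra A₀ B₀ := (inclOfComap B₀ f).toAlgebra
  have l1 : IsLocalHom (algebraMap A₀ B₀) := inferInstanceAs (IsLocalHom (inclOfComap B₀ f))
  let j2 : Algebra A₀ M₀ := (f.comp (algebraMap A₀ E)).toAlgebra
  have s1 : IsScalarTower A₀ E M₀ := IsScalarTower.of_algebraMap_eq fun _ => rfl
  have s2 : IsScalarTower A₀ B₀ M₀ := IsScalarTower.of_algebraMap_eq fun _ => rfl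
  have hinj : Function.Injective (algebraMap A₀ B₀) := by
    intro a b hab
    have h1 := congrArg (fun x : B₀ => (x : M₀)) hab
    exact Subtype.ext (f.injective h1)
  have hw : IsWeaklyUnramified A₀ B₀ := by
    refine (Groth.Agent.Etalg.RamWeak.isWeaklyUnramified_incl_iff B₀ f).2 fun x hx => ?_
    rw [valuation_comap_lt_one_iff] at hx
    have hfπ : ((f ⟨π, hπE⟩ : M₀) : Ω) = π := hf _
    refine ⟨⟨π, hπE⟩, ?_, ?_⟩
    · rw [valuation_comap_lt_one_iff]
      show O.valuation ((f ⟨π, hπE⟩ : M₀) : Ω) < 1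
      rw [hfπ]; exact hπ.2.1
    · rw [valuation_comap_le_iff]
      show O.valuation (x : Ω) ≤ O.valuation ((f ⟨π, hπE⟩ : M₀) : Ω)
      rw [hfπ]
      exact hπ.le_of_lt_one x.2 hx
  have hg' : Algebra.IsGeometricallyReduced (ResidueField A₀) (ResidueField B₀) := by
    have e : (ResidueField.map (inclOfComap (O.comap (algebraMap M₀ Ω)) f)).toAlgebra =
        (ResidueField.instAlgebra : Algebra (ResidueField A₀) (ResidueField B₀)) := by
      refine Algebra.algebra_ext _ _ fun x => ?_
      obtain ⟨x, rfl⟩ := residue_surjective x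
      rfl
    have h := hg
    rw [e] at h
    exact h
  have hsol : IsSolution B₀ E M₀ N := Groth.Agent.S1983.result A₀ B₀ E M₀ hinj hw N
  -- apply to the compositum
  have hadj : Algebra.adjoin M₀ (Set.range (algebraMap N M)) = ⊤ := by
    have halg : ∀ x ∈ Set.range (algebraMap N M), IsAlgebraic M₀ x := by
      rintro _ ⟨x, rfl⟩
      have h1 : IsAlgebraic E (algebraMap N M x) :=
        (Algebra.IsAlgebraic.isAlgebraic x).algHom (IsScalarTower.toAlgHom E N M)
      exact h1.extendScalars (algebraMap E M₀).injective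
    rw [← adjoin_toSubalgebra_of_isAlgebraic halg]
    let A₁ : IntermediateField M₀ M := adjoin M₀ (Set.range (algebraMap N M))
    have hP : ∀ x : M, x ∈ A₁ := by
      let A₂ : IntermediateField K Ω :=
        { carrier := {x | ∃ h : x ∈ M, (⟨x, h⟩ : M) ∈ A₁}
          mul_mem' := fun {a b} ⟨ha, ha'⟩ ⟨hb, hb'⟩ => ⟨mul_mem ha hb, A₁.mul_mem ha' hb'⟩
          add_mem' := fun {a b} ⟨ha, ha'⟩ ⟨hb, hb'⟩ => ⟨add_mem ha hb, A₁.add_mem ha' hb'⟩
          algebraMap_mem' := fun c => ⟨M.algebraMap_mem c,
            A₁.algebraMap_mem (algebraMap K M₀ c)⟩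
          inv_mem' := fun a ⟨ha, ha'⟩ => ⟨inv_mem ha, A₁.inv_mem ha'⟩ }
      have hPA : M ≤ A₂ := by
        refine sup_le (fun x hx => ?_) (fun x hx => ?_)
        · have hxM : x ∈ M₀ := by rw [hM₀]; exact (le_sup_left : X ≤ _) hx
          exact ⟨hM₀M hxM, A₁.algebraMap_mem (⟨x, hxM⟩ : M₀)⟩
        · exact ⟨hNM hx, subset_adjoin _ _ ⟨⟨x, hx⟩, rfl⟩⟩
      exact fun x => (hPA x.2).2
    rw [eq_top_iff]
    exact fun x _ => hP x
  let W : ValuationSubring M := O.comap (algebraMap M Ω)
  have hdom : Dominates B₀ ((algebraMap M₀ M).comp (algebraMap B₀ M₀)) W :=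
    (dominates_comp_subtype_iff (algebraMap M₀ M) B₀ W).2 rfl
  have hfinal := hsol M hadj W hdom
  have hNsep : Algebra.IsSeparable K N := isSeparable_normalClosure E
  exact ⟨N, inferInstance, inferInstance, inferInstance, hNsep,
    Groth.Agent.Etalg.SolNormal.isSolution_of_normal O hO N M rfl g (fun _ => rfl) hfinal.1 hfinal.2⟩


/-- A good finite level can be replaced by a good finite separable level. -/
theorem exists_good_separable {B : Type u} [CommRing B] [IsDomain B] [IsDiscreteValuationRing B] [Algebra B L]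
    [IsFractionRing B L] [IsAlgClosed Ω] (hB : CAlg.IsNagata B)
    (hO : Dominates B ((algebraMap L Ω).comp (algebraMap B L)) O)
    [IsDiscreteValuationRing (O.comap (algebraMap K Ω))] [Algebra.IsGeometricallyReduced K L]
    (n : ℕ) : ∀ (E : IntermediateField K Ω), FiniteDimensional K E → Field.finInsepDegree K E ≤ n → Good L O E →
    ∃ E' : IntermediateField K Ω, FiniteDimensional K E' ∧ Algebra.IsSeparable K E' ∧ Good L O E' := by
  induction n with
  | zero =>
    intro E hfE hn _
    exact absurd (Nat.le_zero.mp hn) (NeZero.ne _)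
  | succ n ih =>
    intro E hfE hn hgood
    by_cases hE : Algebra.IsSeparable K E
    · exact ⟨E, hfE, hE, hgood⟩
    obtain ⟨p, hp⟩ := ExpChar.exists K
    cases hp with
    | zero => exact absurd (inferInstance : Algebra.IsSeparable K E) hE
    | prime hprime =>
      obtain ⟨E', hfE', hdeg, hgood'⟩ := step hB hO p hprime E hE hgood
      exact ih E' hfE' (by omega) hgood'

/-- A good finite level gives a separable solution. -/
theorem exists_separable_solution {B : Type u} [CommRing B] [IsDomain B] [IsDiscreteValuationRing B] [Algebra B L]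
    [IsFractionRing B L] [IsAlgClosed Ω] (hB : CAlg.IsNagata B)
    (hO : Dominates B ((algebraMap L Ω).comp (algebraMap B L)) O)
    [IsDiscreteValuationRing (O.comap (algebraMap K Ω))] [Algebra.IsGeometricallyReduced K L]
    (E : IntermediateField K Ω) [FiniteDimensional K E] (hgood : Good L O E) :
    ∃ (K₁ : Type u) (_ : Field K₁) (_ : Algebra K K₁) (_ : FiniteDimensional K K₁)
      (_ : Algebra.IsSeparable K K₁), IsSolution B K L K₁ := by
  obtain ⟨E', hfE', hsepE', t, htE, htM, hg⟩ := exists_good_separable hB hO _ E inferInstance le_rfl hgood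
  have dM : IsDiscreteValuationRing (VR O (XL K L Ω ⊔ E').toSubfield) := isDVR_M hO E'
  exact isSolution_of_good (B := B) (K := K) (L := L) O hO E' (XL K L Ω ⊔ E') rfl
    (IntermediateField.inclusion (le_sup_right : E' ≤ XL K L Ω ⊔ E')).toRingHom (fun _ => rfl)
    (π := toΩ O E'.toSubfield t) (t : E'.toSubfield).2 (isUnif_of_max (XL K L Ω ⊔ E').toSubfield _ htM) hg

end Groth.Agent.Etalg2.H529.SolSep
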