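import Groth.Agent.Etalg2.H529.TwoLevel
import Groth.Agent.Etalg2.H529.FieldStep
import Groth.Agent.Etalg2.H529.NagataVal
import Groth.Agent.Etalg.SolNormal
import Groth.Agent.Etalg.RamDVR2

/-!
# The step removing a purely inseparable extension of degree `p`
-/

set_option autoImplicit false
universe u

open IsLocalRing Polynomial IntermediateField EtRam TensorProduct

namespace Groth.Agent.Etalg2.H529.Step

open OneLevel TwoLevel

variable {K L Ω : Type u} [Field K] [Field L] [Field Ω]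
  [Algebra K L] [Algebra L Ω] [Algebra K Ω] [IsScalarTower K L Ω]

variable (K L Ω) in
/-- The image of `L`. -/
noncomputable abbrev XL : IntermediateField K Ω := (IsScalarTower.toAlgHom K L Ω).fieldRange

theorem sub_mono {E F : IntermediateField K Ω} (h : E ≤ F) : E.toSubfield ≤ F.toSubfield := h

variable (L) in
/-- Weakly unramified with geometrically reduced residue field extension. -/
def Good (O : ValuationSubring Ω) (E : IntermediateField K Ω) : Prop :=
  ∃ t : VR O E.toSubfield, maximalIdeal (VR O E.toSubfield) = Ideal.span {t} ∧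
    maximalIdeal (VR O (XL K L Ω ⊔ E).toSubfield) =
      Ideal.span {incl (sub_mono (le_sup_right : E ≤ XL K L Ω ⊔ E)) t} ∧
    @Algebra.IsGeometricallyReduced (ResidueField (VR O E.toSubfield))
      (ResidueField (VR O (XL K L Ω ⊔ E).toSubfield)) _ _
      (ResidueField.map (incl (O := O) (sub_mono (le_sup_right : E ≤ XL K L Ω ⊔ E)))).toAlgebra

variable {O : ValuationSubring Ω}

theorem isDVR_E [IsDiscreteValuationRing (O.comap (algebraMap K Ω))] (E : IntermediateField K Ω)
    [FiniteDimensional K E] : IsDiscreteValuationRing (VR O E.toSubfield) := by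
  have h := Groth.Agent.Etalg.RamDVR2.isDVR_of_comap (K := K) (L := E) (O.comap (algebraMap E Ω))
    (V := O.comap (algebraMap K Ω)) (by
      rw [ValuationSubring.comap_comap]
      rfl)
  exact h

/-- `L → X ⊔ E` -/
noncomputable def toM (E : IntermediateField K Ω) : L →+* (XL K L Ω ⊔ E : IntermediateField K Ω) :=
  (algebraMap L Ω).codRestrict (XL K L Ω ⊔ E : IntermediateField K Ω)
    (fun x => (le_sup_left : XL K L Ω ≤ XL K L Ω ⊔ E) ⟨x, rfl⟩)

theorem adjoin_eq_top (E : IntermediateField K Ω) [FiniteDimensional K E] (f : E →+* (XL K L Ω ⊔ E : IntermediateField K Ω))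
    (hf : ∀ x, ((f x : (XL K L Ω ⊔ E : IntermediateField K Ω)) : Ω) = x) :
    @Algebra.adjoin L (XL K L Ω ⊔ E : IntermediateField K Ω) _ _ (toM E).toAlgebra (Set.range f) = ⊤ := by
  let M : IntermediateField K Ω := XL K L Ω ⊔ E
  let i1 : Algebra L M := (toM E).toAlgebra
  have t1 : IsScalarTower K L M := IsScalarTower.of_algebraMap_eq fun x => Subtype.ext
    (IsScalarTower.algebraMap_apply K L Ω x)
  have halg : ∀ x ∈ Set.range f, IsAlgebraic L x := by
    rintro _ ⟨x, rfl⟩
    obtain ⟨P, hP0, hP⟩ := Algebra.IsAlgebraic.isAlgebraic (R := K) x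
    have h1 : IsAlgebraic K (f x) := by
      refine ⟨P, hP0, ?_⟩
      have h2 : aeval (x : Ω) P = 0 := by
        have := congrArg (algebraMap E Ω) hP
        rw [map_zero, ← aeval_algebraMap_apply] at this
        exact this
      apply Subtype.ext
      have h3 := aeval_algebraMap_apply Ω (f x) P
      have h4 : algebraMap M Ω (f x) = (x : Ω) := hf x
      rw [h4, h2] at h3
      exact h3.symm
    exact h1.extendScalars (algebraMap K L).injective
  have key : ∀ x : M, x ∈ Algebra.adjoin L (Set.range f) := by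
    rw [← adjoin_toSubalgebra_of_isAlgebraic halg]
    let A₁ : IntermediateField L M := adjoin L (Set.range f)
    let A₂ : IntermediateField K Ω :=
      { carrier := {x | ∃ h : x ∈ M, (⟨x, h⟩ : M) ∈ A₁}
        mul_mem' := fun {a b} ⟨ha, ha'⟩ ⟨hb, hb'⟩ => ⟨mul_mem ha hb, A₁.mul_mem ha' hb'⟩
        add_mem' := fun {a b} ⟨ha, ha'⟩ ⟨hb, hb'⟩ => ⟨add_mem ha hb, A₁.add_mem ha' hb'⟩
        algebraMap_mem' := fun c => ⟨M.algebraMap_mem c, by
          have h1 := A₁.algebraMap_mem (algebraMap K L c)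
          have h2 : algebraMap L M (algebraMap K L c) = ⟨algebraMap K Ω c, M.algebraMap_mem c⟩ :=
            Subtype.ext (IsScalarTower.algebraMap_apply K L Ω c).symm
          rwa [h2] at h1⟩
        inv_mem' := fun a ⟨ha, ha'⟩ => ⟨inv_mem ha, A₁.inv_mem ha'⟩ }
    have hPA : M ≤ A₂ := by
      refine sup_le ?_ (fun x hx => ?_)
      · rintro _ ⟨l, rfl⟩
        exact ⟨(le_sup_left : XL K L Ω ≤ XL K L Ω ⊔ E) ⟨l, rfl⟩, A₁.algebraMap_mem l⟩
      · exact ⟨(le_sup_right : E ≤ XL K L Ω ⊔ E) hx, subset_adjoin _ _ ⟨⟨x, hx⟩, Subtype.ext (hf _)⟩⟩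
    exact fun x => (hPA x.2).2
  exact eq_top_iff.mpr fun x _ => key x

theorem finite_toM (E : IntermediateField K Ω) [FiniteDimensional K E] :
    @FiniteDimensional L (XL K L Ω ⊔ E : IntermediateField K Ω) _ _ (toM E).toAlgebra.toModule := by
  let M : IntermediateField K Ω := XL K L Ω ⊔ E
  let i1 : Algebra L M := (toM E).toAlgebra
  have t1 : IsScalarTower K L M := IsScalarTower.of_algebraMap_eq fun x => Subtype.ext
    (IsScalarTower.algebraMap_apply K L Ω x)
  let f : E →ₐ[K] M := inclusion le_sup_right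
  have hadj := adjoin_eq_top (L := L) E f.toRingHom (fun x => rfl)
  let Φ : L ⊗[K] E →ₐ[L] M := Algebra.TensorProduct.lift (Algebra.ofId L M) f (fun _ _ => Commute.all _ _)
  have hΦ : ∀ (x : L) (y : E), Φ (x ⊗ₜ y) = algebraMap L M x * f y :=
    fun x y => Algebra.TensorProduct.lift_tmul _ _ _ x y
  have hsurj : Function.Surjective Φ := by
    intro x
    have hx : x ∈ Algebra.adjoin L (Set.range f.toRingHom) := by rw [hadj]; trivial
    induction hx using Algebra.adjoin_induction with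
    | mem y hy =>
      obtain ⟨z, rfl⟩ := hy
      exact ⟨1 ⊗ₜ z, by rw [hΦ, map_one, one_mul]; rfl⟩
    | algebraMap l => exact ⟨l ⊗ₜ 1, by rw [hΦ, map_one, mul_one]⟩
    | add x y _ _ hx hy =>
      obtain ⟨x', rfl⟩ := hx
      obtain ⟨y', rfl⟩ := hy
      exact ⟨x' + y', map_add _ _ _⟩
    | mul x y _ _ hx hy =>
      obtain ⟨x', rfl⟩ := hx
      obtain ⟨y', rfl⟩ := hy
      exact ⟨x' * y', map_mul _ _ _⟩
  exact Module.Finite.of_surjective Φ.toLinearMap hsurj

/-- `toM` as a map of pairs -/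
theorem dominates_toM {B : Type u} [CommRing B] [IsDomain B] [IsDiscreteValuationRing B] [Algebra B L]
    [IsFractionRing B L] (hO : Dominates B ((algebraMap L Ω).comp (algebraMap B L)) O) (E : IntermediateField K Ω) :
    Dominates B ((toM E).comp (algebraMap B L)) (VR O (XL K L Ω ⊔ E).toSubfield) := by
  have h := (Groth.Agent.Etalg.RamBasic.dominates_comp_iff ((toM E).comp (algebraMap B L))
    (algebraMap (XL K L Ω ⊔ E : IntermediateField K Ω) Ω) O)
  exact h.mp hO

theorem isDVR_M {B : Type u} [CommRing B] [IsDomain B] [IsDiscreteValuationRing B] [Algebra B L]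
    [IsFractionRing B L] (hO : Dominates B ((algebraMap L Ω).comp (algebraMap B L)) O) (E : IntermediateField K Ω)
    [FiniteDimensional K E] : IsDiscreteValuationRing (VR O (XL K L Ω ⊔ E).toSubfield) := by
  let i1 : Algebra L (XL K L Ω ⊔ E).toSubfield := (toM E).toAlgebra
  have hfin : FiniteDimensional L (XL K L Ω ⊔ E).toSubfield := finite_toM E
  exact Groth.Agent.Etalg.RamDVR.isDVR_of_dominates (A := B) (K := L) (dominates_toM hO E)

theorem isNagata_M {B : Type u} [CommRing B] [IsDomain B] [IsDiscreteValuationRing B] [Algebra B L]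
    [IsFractionRing B L] (hB : CAlg.IsNagata B)
    (hO : Dominates B ((algebraMap L Ω).comp (algebraMap B L)) O) (E : IntermediateField K Ω)
    [FiniteDimensional K E] : CAlg.IsNagata (VR O (XL K L Ω ⊔ E).toSubfield) := by
  let i1 : Algebra L (XL K L Ω ⊔ E).toSubfield := (toM E).toAlgebra
  have hfin : FiniteDimensional L (XL K L Ω ⊔ E).toSubfield := finite_toM E
  exact NagataVal.isNagata_of_dominates (B := B) (L := L) hB _ (dominates_toM hO E)

/-- no new `p`-th roots in `L E₀` -/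
theorem not_mem_sup [Algebra.IsGeometricallyReduced K L] (p : ℕ) (hp : p.Prime) [CharP K p]
    (E₀ : IntermediateField K Ω) [FiniteDimensional K E₀] (b : Ω) (hb : b ∉ E₀) (hbp : b ^ p ∈ E₀) :
    b ∉ XL K L Ω ⊔ E₀ := by
  intro hbM
  let M : IntermediateField K Ω := XL K L Ω ⊔ E₀
  let i1 : Algebra L M := (toM E₀).toAlgebra
  have t1 : IsScalarTower K L M := IsScalarTower.of_algebraMap_eq fun x => Subtype.ext
    (IsScalarTower.algebraMap_apply K L Ω x)
  let f : E₀ →ₐ[K] M := inclusion le_sup_right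
  let i2 : Algebra E₀ M := f.toRingHom.toAlgebra
  have t2 : IsScalarTower K E₀ M := IsScalarTower.of_algebraMap_eq fun x => (f.commutes x).symm
  have hadj := adjoin_eq_top (L := L) E₀ f.toRingHom (fun x => rfl)
  have hg : Algebra.IsGeometricallyReduced E₀ M := FieldStep.geomReduced_compositum (K := K) (L := L) hadj
  have hcp : CharP E₀ p := charP_of_injective_algebraMap (algebraMap K E₀).injective p
  obtain ⟨a, ha⟩ := FieldStep.mem_of_pow_mem (F := E₀) (M := M) p hp ⟨b, hbM⟩ ⟨b ^ p, hbp⟩ (Subtype.ext rfl)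
  apply hb
  have h1 : ((algebraMap E₀ M a : M) : Ω) = b := congrArg Subtype.val ha
  rw [← h1]
  exact a.2

theorem le_of_le_sup {G G₀ : IntermediateField K Ω} {b : Ω} (h : G ≤ G₀ ⊔ K⟮b⟯) (H : Subfield Ω)
    (h1 : G₀.toSubfield ≤ H) (h2 : b ∈ H) : G.toSubfield ≤ H := by
  let H' : IntermediateField K Ω := H.toIntermediateField (fun x => h1 (G₀.algebraMap_mem x))
  have h3 : G ≤ H' := by
    refine h.trans (sup_le (fun x hx => h1 hx) ?_)
    rw [adjoin_simple_le_iff]
    exact h2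
  exact h3

/-- The inseparable degree does not change under a separable extension `E₀(b')`. -/
theorem finInsepDegree_sup (E₀ : IntermediateField K Ω) [FiniteDimensional K E₀] (b' : Ω)
    (hb' : IsSeparable E₀ b') : Field.finInsepDegree K (E₀ ⊔ K⟮b'⟯ : IntermediateField K Ω) = Field.finInsepDegree K E₀ := by
  let E' : IntermediateField K Ω := E₀ ⊔ K⟮b'⟯
  let i1 : Algebra E₀ E' := (inclusion (le_sup_left : E₀ ≤ E')).toRingHom.toAlgebra
  have t1 : IsScalarTower K E₀ E' := IsScalarTower.of_algebraMap_eq fun x => rfl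
  have t2 : IsScalarTower E₀ E' Ω := IsScalarTower.of_algebraMap_eq fun x => rfl
  have h1 := Field.finInsepDegree_mul_finInsepDegree_of_isAlgebraic K E₀ E'
  have h2 : Algebra.IsSeparable E₀ E₀⟮b'⟯ := (isSeparable_adjoin_simple_iff_isSeparable E₀ Ω).mpr hb'
  have h3 : Algebra.IsSeparable E₀ E' := by
    refine ⟨fun x => ?_⟩
    have h4 : E' ≤ (E₀⟮b'⟯).restrictScalars K := by
      refine sup_le (fun x hx => (E₀⟮b'⟯).algebraMap_mem ⟨x, hx⟩) ?_
      rw [adjoin_simple_le_iff]
      exact mem_adjoin_simple_self E₀ b'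
    have h5 : IsSeparable E₀ (x : Ω) := isSeparable_of_mem_isSeparable E₀ Ω (h4 x.2)
    have h6 : minpoly E₀ ((algebraMap E' Ω) x) = minpoly E₀ x := minpoly.algebraMap_eq (algebraMap E' Ω).injective x
    unfold IsSeparable at h5 ⊢
    rwa [← h6]
  rw [h3.finInsepDegree_eq, mul_one] at h1
  exact h1.symm

theorem step {B : Type u} [CommRing B] [IsDomain B] [IsDiscreteValuationRing B] [Algebra B L]
    [IsFractionRing B L] [IsAlgClosed Ω] (hB : CAlg.IsNagata B)
    (hO : Dominates B ((algebraMap L Ω).comp (algebraMap B L)) O)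
    [IsDiscreteValuationRing (O.comap (algebraMap K Ω))] [Algebra.IsGeometricallyReduced K L]
    (p : ℕ) (hp : p.Prime) [CharP K p] (E : IntermediateField K Ω) [FiniteDimensional K E]
    (hE : ¬ Algebra.IsSeparable K E) (hgood : Good L O E) :
    ∃ E' : IntermediateField K Ω, FiniteDimensional K E' ∧
      Field.finInsepDegree K E' < Field.finInsepDegree K E ∧ Good L O E' := by
  have hexp : ExpChar K p := ExpChar.prime hp
  have hcpΩ : CharP Ω p := charP_of_injective_algebraMap (algebraMap K Ω).injective p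
  have hexpΩ : ExpChar Ω p := ExpChar.prime hp
  obtain ⟨F, b₀, hb₀F, hb₀p, hgenF, hdeg⟩ := FieldStep.exists_step (K := K) (E := E) p hE
  let E₀ : IntermediateField K Ω := IntermediateField.lift F
  have hE₀E : E₀ ≤ E := lift_le F
  have hfE₀ : FiniteDimensional K E₀ := Module.Finite.equiv (liftAlgEquiv F).toLinearEquiv
  have hb₀E₀ : (b₀ : Ω) ∉ E₀ := fun h => hb₀F ((mem_lift b₀).mp h)
  have hb₀pE₀ : (b₀ : Ω) ^ p ∈ E₀ := (mem_lift (b₀ ^ p)).mpr hb₀p
  have hEsup : E ≤ E₀ ⊔ K⟮(b₀ : Ω)⟯ := by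
    have h1 := congrArg IntermediateField.lift hgenF
    rw [lift_sup, lift_adjoin_simple, lift_top] at h1
    exact h1.ge
  -- the uniformizer of `K`
  obtain ⟨ϖ, hϖ⟩ := IsDiscreteValuationRing.exists_irreducible (O.comap (algebraMap K Ω))
  let π : VR O E₀.toSubfield := ⟨⟨algebraMap K Ω ϖ, E₀.algebraMap_mem _⟩, ϖ.2⟩
  have hπΩ : toΩ O E₀.toSubfield π = algebraMap K Ω ϖ := rfl
  have hϖ0 : (ϖ : K) ≠ 0 := fun h => hϖ.ne_zero (Subtype.ext h)
  have hπ0' : algebraMap K Ω (ϖ : K) ≠ 0 := (_root_.map_ne_zero _).mpr hϖ0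
  have hπ0 : π ≠ 0 := by
    intro h
    apply hπ0'
    rw [← hπΩ, h, map_zero]
  have hπ : π ∈ maximalIdeal (VR O E₀.toSubfield) := by
    rw [mem_maximalIdeal_iff, hπΩ, ← Groth.Agent.Etalg.RamBasic.valuation_comap_lt_one_iff,
      ← ValuationSubring.valuation_lt_one_iff]
    exact hϖ.not_isUnit
  have dE₀ : IsDiscreteValuationRing (VR O E₀.toSubfield) := isDVR_E E₀
  let M₀ : IntermediateField K Ω := XL K L Ω ⊔ E₀
  let M : IntermediateField K Ω := XL K L Ω ⊔ E
  have dM₀ : IsDiscreteValuationRing (VR O M₀.toSubfield) := isDVR_M hO E₀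
  -- scaling
  obtain ⟨k, d, hkd⟩ := exists_clear (D := VR O E₀.toSubfield) (F := E₀.toSubfield) hπ ⟨(b₀ : Ω) ^ p, hb₀pE₀⟩
  have hkd' : algebraMap K Ω ϖ ^ k * (b₀ : Ω) ^ p = toΩ O E₀.toSubfield d :=
    congrArg (fun x : E₀.toSubfield => (x : Ω)) hkd
  let a : VR O E₀.toSubfield := π ^ (k * p - k) * d
  let b : Ω := algebraMap K Ω ϖ ^ k * b₀
  have hb : b ^ p = toΩ O E₀.toSubfield a := by
    have h1 : k ≤ k * p := Nat.le_mul_of_pos_right k hp.pos
    show (algebraMap K Ω ϖ ^ k * (b₀ : Ω)) ^ p = toΩ O E₀.toSubfield (π ^ (k * p - k) * d)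
    rw [map_mul, map_pow, hπΩ, ← hkd', ← mul_assoc, ← pow_add, Nat.sub_add_cancel h1, mul_pow, pow_mul]
  have hk0 : algebraMap K Ω (ϖ : K) ^ k ≠ 0 := pow_ne_zero k hπ0'
  have hkK : ∀ G : IntermediateField K Ω, algebraMap K Ω (ϖ : K) ^ k ∈ G := fun G => pow_mem (G.algebraMap_mem _) k
  have hb₀eq : (b₀ : Ω) = (algebraMap K Ω (ϖ : K) ^ k)⁻¹ * b := (inv_mul_cancel_left₀ hk0 _).symm
  have hbE₀ : b ∉ E₀ := by
    intro h
    apply hb₀E₀
    rw [hb₀eq]
    exact mul_mem (inv_mem (hkK E₀)) h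
  have hbE : b ∈ E := mul_mem (hkK E) b₀.2
  have hEsup' : E ≤ E₀ ⊔ K⟮b⟯ := by
    refine hEsup.trans (sup_le le_sup_left ?_)
    rw [adjoin_simple_le_iff, hb₀eq]
    exact mul_mem (inv_mem (hkK _)) ((le_sup_right : K⟮b⟯ ≤ _) (mem_adjoin_simple_self K b))
  have hMsup : M ≤ M₀ ⊔ K⟮b⟯ := by
    refine sup_le (le_sup_left.trans le_sup_left) (hEsup'.trans (sup_le_sup_right le_sup_right _))
  have hbpE₀ : b ^ p ∈ E₀ := by rw [hb]; exact (a : E₀.toSubfield).2
  have hbM₀ : b ∉ M₀ := not_mem_sup p hp E₀ b hbE₀ hbpE₀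
  -- inclusions
  have i₀ : E₀ ≤ M₀ := le_sup_right
  have i₁ : E ≤ M := le_sup_right
  have i₂ : M₀ ≤ M := sup_le_sup_left hE₀E _
  -- polynomials
  have hinj : ∀ P : M₀.toSubfield[X], P.degree < p → P.eval₂ M₀.toSubfield.subtype b = 0 → P = 0 :=
    fun P hP hPb => NagataVal.eq_zero_of_degree_lt M₀.toSubfield p hp b hbM₀ ⟨b ^ p, i₀ hbpE₀⟩ rfl P hP hPb
  have hgen : ∀ (G₀ G : IntermediateField K Ω), G ≤ G₀ ⊔ K⟮b⟯ → b ^ p ∈ G₀ → ∀ x ∈ G.toSubfield,
      ∃ P : G₀.toSubfield[X], P.degree < p ∧ P.eval₂ G₀.toSubfield.subtype b = x := by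
    intro G₀ G hG hbG x hx
    let g : G₀.toSubfield[X] := X ^ p - C ⟨b ^ p, hbG⟩
    have h1 := NagataVal.exists_poly_lt G₀.toSubfield G.toSubfield b g (monic_X_pow_sub_C _ hp.ne_zero) (by
      simp only [g, eval₂_sub, eval₂_X_pow, eval₂_C]
      exact sub_self _) (fun H h1 h2 => le_of_le_sup hG H h1 h2) x hx
    rwa [degree_X_pow_sub_C hp.pos] at h1
  -- finiteness
  have hfin : (incl (O := O) (sub_mono i₂)).Finite := by
    refine NagataVal.finite_incl M₀.toSubfield M.toSubfield (sub_mono i₂) ?_ (isNagata_M hB hO E₀) p hp.pos ?_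
    · let j1 : Algebra L M₀.toSubfield := (toM E₀).toAlgebra
      let j2 : Algebra L M.toSubfield := (toM E).toAlgebra
      let j3 : Algebra M₀.toSubfield M.toSubfield := (Subfield.inclusion (sub_mono i₂)).toAlgebra
      have t1 : IsScalarTower L M₀.toSubfield M.toSubfield := IsScalarTower.of_algebraMap_eq' rfl
      have hfinM : Module.Finite L M.toSubfield := finite_toM E
      exact Module.Finite.of_restrictScalars_finite L M₀.toSubfield M.toSubfield
    · intro x hx
      have h1 : M.toSubfield ≤ M₀.toSubfield.comap (frobenius Ω p) := by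
        refine le_of_le_sup hMsup _ ?_ ?_
        · intro y hy
          exact pow_mem hy p
        · exact i₀ hbpE₀
      exact h1 hx
  obtain ⟨c, hc⟩ := NagataVal.exists_conductor M₀.toSubfield M.toSubfield (sub_mono i₂)
    (incl (O := O) (sub_mono i₀) π) (by
      intro h
      apply hπ0'
      have := congrArg (toΩ O M₀.toSubfield) h
      rw [map_zero] at this
      exact this) (incl_mem_maximalIdeal _ hπ) p b (hgen M₀ M hMsup (i₀ hbpE₀)) hfin
  -- the deformed element
  let N : ℕ := 2 * c + 2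
  let q : Polynomial Ω := X ^ p - (C (algebraMap K Ω (ϖ : K) ^ N) * X + C (b ^ p))
  have hlin : (C (algebraMap K Ω (ϖ : K) ^ N) * X + C (b ^ p)).degree < (p : WithBot ℕ) :=
    lt_of_le_of_lt degree_linear_le (by exact_mod_cast hp.one_lt)
  obtain ⟨b', hb'⟩ : ∃ b', q.IsRoot b' := by
    apply IsAlgClosed.exists_root
    have h1 : q.degree = p := by
      show (X ^ p - (C (algebraMap K Ω (ϖ : K) ^ N) * X + C (b ^ p)) : Polynomial Ω).degree = p
      rw [degree_sub_eq_left_of_degree_lt (by rwa [degree_X_pow]), degree_X_pow]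
    rw [h1]
    exact_mod_cast hp.ne_zero
  have hb'eq : b' ^ p = algebraMap K Ω (ϖ : K) ^ N * b' + b ^ p := by
    have h1 : q.eval b' = 0 := hb'
    simp only [q, eval_sub, eval_pow, eval_X, eval_add, eval_mul, eval_C] at h1
    exact sub_eq_zero.mp h1
  -- `b'` is integral and separable over `E₀`
  let g₂ : E₀[X] := X ^ p - (C (⟨algebraMap K Ω (ϖ : K) ^ N, pow_mem (E₀.algebraMap_mem _) N⟩ : E₀) * X +
    C (⟨b ^ p, hbpE₀⟩ : E₀))
  have hlin₂ : (C (⟨algebraMap K Ω (ϖ : K) ^ N, pow_mem (E₀.algebraMap_mem _) N⟩ : E₀) * X +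
    C (⟨b ^ p, hbpE₀⟩ : E₀)).degree < (p : WithBot ℕ) :=
    lt_of_le_of_lt degree_linear_le (by exact_mod_cast hp.one_lt)
  have hg₂m : g₂.Monic := monic_X_pow_sub hlin₂
  have hg₂b' : aeval b' g₂ = 0 := by
    simp only [g₂, map_sub, map_pow, aeval_X, map_add, map_mul, aeval_C]
    rw [hb'eq]
    exact sub_self _
  have hintE₀ : IsIntegral E₀ b' := ⟨g₂, hg₂m, hg₂b'⟩
  have hintK : IsIntegral K b' := isIntegral_trans (R := K) (A := E₀) b' hintE₀
  have hcpE₀ : CharP E₀ p := charP_of_injective_algebraMap (algebraMap K E₀).injective p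
  have hsep : IsSeparable E₀ b' := by
    have h1 : g₂.Separable := by
      have h2 : derivative g₂ = - C (⟨algebraMap K Ω (ϖ : K) ^ N, pow_mem (E₀.algebraMap_mem _) N⟩ : E₀) := by
        simp only [g₂, derivative_sub, derivative_X_pow, derivative_add, derivative_mul, derivative_C, derivative_X]
        rw [CharP.cast_eq_zero E₀ p]
        simp
      rw [Polynomial.separable_def, h2]
      have h3 : IsUnit (- C (⟨algebraMap K Ω (ϖ : K) ^ N, pow_mem (E₀.algebraMap_mem _) N⟩ : E₀)) := by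
        rw [IsUnit.neg_iff, isUnit_C, isUnit_iff_ne_zero]
        intro h0
        exact pow_ne_zero N hπ0' (congrArg (fun x : E₀ => (x : Ω)) h0)
      obtain ⟨v, hv⟩ := h3.exists_left_inv
      exact ⟨0, v, by rw [zero_mul, zero_add, hv]⟩
    exact h1.of_dvd (minpoly.dvd E₀ b' hg₂b')
  let E' : IntermediateField K Ω := E₀ ⊔ K⟮b'⟯
  let M' : IntermediateField K Ω := XL K L Ω ⊔ E'
  have hfb' : FiniteDimensional K K⟮b'⟯ := adjoin.finiteDimensional hintK
  have hfE' : FiniteDimensional K E' := inferInstance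
  refine ⟨E', hfE', ?_, ?_⟩
  · have h1 := finInsepDegree_sup E₀ b' hsep
    have h2 : Field.finInsepDegree K F = Field.finInsepDegree K E₀ :=
      Field.finInsepDegree_eq_of_equiv K F E₀ (liftAlgEquiv F)
    rw [← h2] at h1
    exact h1.trans_lt hdeg
  · -- the comparison
    obtain ⟨t, htE, htM, htg⟩ := hgood
    have i₃ : E₀ ≤ E' := le_sup_left
    have i₄ : M₀ ≤ M' := sup_le_sup_left i₃ _
    have i₅ : E' ≤ M' := le_sup_right
    have hbE' : b' ∈ E' := (le_sup_right : K⟮b'⟯ ≤ _) (mem_adjoin_simple_self K b')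
    have hM'sup : M' ≤ M₀ ⊔ K⟮b'⟯ :=
      sup_le (le_sup_left.trans le_sup_left) (sup_le_sup_right le_sup_right _)
    have hintM₀ : IsIntegral M₀.toSubfield b' := by
      refine ⟨g₂.map (Subfield.inclusion (sub_mono i₀)), hg₂m.map _, ?_⟩
      rw [eval₂_map]
      exact hg₂b'
    obtain ⟨t', ht'E, ht'M, e, e', he⟩ := twoLevel (O := O) E₀.toSubfield M₀.toSubfield E.toSubfield M.toSubfield
      E'.toSubfield M'.toSubfield (sub_mono i₀) (sub_mono i₁) (sub_mono i₅) (sub_mono hE₀E) (sub_mono i₂)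
      (sub_mono i₃) (sub_mono i₄) π a hπ0 hπ p hp.two_le b b' hbE hbE' hb N c le_rfl
      (by rw [← hb, hπΩ]; exact hb'eq) hinj (hgen E₀ E hEsup' hbpE₀)
      (NagataVal.exists_poly E₀.toSubfield E'.toSubfield b' hintE₀ (fun H h1 h2 => le_of_le_sup le_rfl H h1 h2))
      (NagataVal.exists_poly M₀.toSubfield M'.toSubfield b' hintM₀ (fun H h1 h2 => le_of_le_sup hM'sup H h1 h2))
      hc t htE htM
    refine ⟨t', ht'E, ht'M, ?_⟩
    exact @Groth.Agent.Etalg.SolNormal.geomReduced_of_hom _ _ _ _ _ _ _ _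
      (ResidueField.map (incl (O := O) (sub_mono i₅))).toAlgebra
      (ResidueField.map (incl (O := O) (sub_mono i₁))).toAlgebra e e'.toRingHom he htg

end Groth.Agent.Etalg2.H529.Step
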