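import Mathlib.RingTheory.Ideal.Quotient.Operations
import Mathlib.RingTheory.Ideal.Span
import Mathlib.RingTheory.Localization.Away.Basic
import Mathlib.Tactic.Ring
import Mathlib.Tactic.LinearCombination

/-!
# Transferring an overring along an isomorphism modulo a power

`C₁ ⊆ B₁` with `π ^ c B₁ ⊆ C₁`, and `C₂ / π ^ N ≃ C₁ / π ^ N` with `N ≥ 2 c + 2`.  Then there is a ring
`C₂ ⊆ B₂ ⊆ C₂[1/π]` with `π ^ c B₂ ⊆ C₂` and `B₂ / π ^ 2 ≃ B₁ / π ^ 2`.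
-/

set_option autoImplicit false
universe u

namespace Groth.Agent.Etalg2.H529.Transfer

variable {C₁ C₂ B₁ M₂ : Type u} [CommRing C₁] [CommRing C₂] [CommRing B₁] [CommRing M₂]

/-- The input data of the transfer. -/
structure Data (ι₁ : C₁ →+* B₁) (ι₂ : C₂ →+* M₂) (π₁ : C₁) (π₂ : C₂) (c N : ℕ)
    (f : C₂ →+* C₁ ⧸ Ideal.span {π₁ ^ N}) : Prop where
  inj₁ : Function.Injective ι₁
  inj₂ : Function.Injective ι₂
  reg₁ : ι₁ π₁ ∈ nonZeroDivisors B₁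
  unit₂ : IsUnit (ι₂ π₂)
  cond : ∀ y : B₁, ∃ c₁ : C₁, ι₁ c₁ = ι₁ π₁ ^ c * y
  surj : Function.Surjective f
  ker : RingHom.ker f = Ideal.span {π₂ ^ N}
  map_pi : f π₂ = Ideal.Quotient.mk _ π₁
  hN : 2 * c + 2 ≤ N

/-- The relation between elements of `C₂[1/π]` and `B₁`. -/
def Rel (ι₁ : C₁ →+* B₁) (ι₂ : C₂ →+* M₂) (π₁ : C₁) (π₂ : C₂) (c N : ℕ)
    (f : C₂ →+* C₁ ⧸ Ideal.span {π₁ ^ N}) (x : M₂) (y : B₁) : Prop :=
  ∃ (c₂ : C₂) (c₁ : C₁), ι₂ c₂ = ι₂ π₂ ^ c * x ∧ ι₁ c₁ = ι₁ π₁ ^ c * y ∧ f c₂ = Ideal.Quotient.mk _ c₁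

section

variable {ι₁ : C₁ →+* B₁} {ι₂ : C₂ →+* M₂} {π₁ : C₁} {π₂ : C₂} {c N : ℕ}
  {f : C₂ →+* C₁ ⧸ Ideal.span {π₁ ^ N}}

lemma rel_add {x x' : M₂} {y y' : B₁} (h : Rel ι₁ ι₂ π₁ π₂ c N f x y) (h' : Rel ι₁ ι₂ π₁ π₂ c N f x' y') :
    Rel ι₁ ι₂ π₁ π₂ c N f (x + x') (y + y') := by
  obtain ⟨c₂, c₁, h1, h2, h3⟩ := h
  obtain ⟨c₂', c₁', h1', h2', h3'⟩ := h'
  exact ⟨c₂ + c₂', c₁ + c₁', by rw [map_add, h1, h1', mul_add], by rw [map_add, h2, h2', mul_add],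
    by rw [map_add, map_add, h3, h3']⟩

lemma rel_neg {x : M₂} {y : B₁} (h : Rel ι₁ ι₂ π₁ π₂ c N f x y) :
    Rel ι₁ ι₂ π₁ π₂ c N f (-x) (-y) := by
  obtain ⟨c₂, c₁, h1, h2, h3⟩ := h
  exact ⟨-c₂, -c₁, by rw [map_neg, h1, mul_neg], by rw [map_neg, h2, mul_neg], by rw [map_neg, map_neg, h3]⟩

lemma rel_sub {x x' : M₂} {y y' : B₁} (h : Rel ι₁ ι₂ π₁ π₂ c N f x y) (h' : Rel ι₁ ι₂ π₁ π₂ c N f x' y') :
    Rel ι₁ ι₂ π₁ π₂ c N f (x - x') (y - y') := by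
  rw [sub_eq_add_neg, sub_eq_add_neg]
  exact rel_add h (rel_neg h')

lemma rel_zero : Rel ι₁ ι₂ π₁ π₂ c N f 0 0 :=
  ⟨0, 0, by simp, by simp, by simp⟩

/-- Related elements of `C₂` and `C₁` are related. -/
lemma rel_of_eq (hd : Data ι₁ ι₂ π₁ π₂ c N f) {c₂ : C₂} {c₁ : C₁} (h : f c₂ = Ideal.Quotient.mk _ c₁) :
    Rel ι₁ ι₂ π₁ π₂ c N f (ι₂ c₂) (ι₁ c₁) :=
  ⟨π₂ ^ c * c₂, π₁ ^ c * c₁, by rw [map_mul, map_pow], by rw [map_mul, map_pow],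
    by rw [map_mul, map_mul, map_pow, map_pow, hd.map_pi, h]⟩

lemma rel_one (hd : Data ι₁ ι₂ π₁ π₂ c N f) : Rel ι₁ ι₂ π₁ π₂ c N f 1 1 := by
  have := rel_of_eq hd (c₂ := 1) (c₁ := 1) (by rw [map_one, map_one])
  rwa [map_one, map_one] at this

/-- Multiplying by related elements of `C₂`, `C₁`. -/
lemma rel_smul {a₂ : C₂} {a₁ : C₁} (h : f a₂ = Ideal.Quotient.mk _ a₁) {x : M₂} {y : B₁}
    (hxy : Rel ι₁ ι₂ π₁ π₂ c N f x y) : Rel ι₁ ι₂ π₁ π₂ c N f (ι₂ a₂ * x) (ι₁ a₁ * y) := by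
  obtain ⟨c₂, c₁, h1, h2, h3⟩ := hxy
  exact ⟨a₂ * c₂, a₁ * c₁, by rw [map_mul, h1]; ring, by rw [map_mul, h2]; ring, by rw [map_mul, map_mul, h, h3]⟩

lemma exists_right (c₂ : C₂) : ∃ c₁ : C₁, f c₂ = Ideal.Quotient.mk _ c₁ := by
  obtain ⟨c₁, h⟩ := Ideal.Quotient.mk_surjective (f c₂)
  exact ⟨c₁, h.symm⟩

lemma exists_left (hd : Data ι₁ ι₂ π₁ π₂ c N f) (c₁ : C₁) : ∃ c₂ : C₂, f c₂ = Ideal.Quotient.mk _ c₁ :=
  hd.surj _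

lemma mk_eq_iff {a b : C₁} : (Ideal.Quotient.mk (Ideal.span {π₁ ^ N}) a) = Ideal.Quotient.mk _ b ↔
    ∃ e, a = b + π₁ ^ N * e := by
  rw [Ideal.Quotient.eq, Ideal.mem_span_singleton]
  constructor
  · rintro ⟨e, he⟩
    exact ⟨e, by rw [← he]; ring⟩
  · rintro ⟨e, he⟩
    exact ⟨e, by rw [he]; ring⟩

lemma f_eq_iff (hd : Data ι₁ ι₂ π₁ π₂ c N f) {a b : C₂} : f a = f b ↔ ∃ e, a = b + π₂ ^ N * e := by
  rw [← sub_eq_zero, ← map_sub, ← RingHom.mem_ker, hd.ker, Ideal.mem_span_singleton]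
  constructor
  · rintro ⟨e, he⟩
    exact ⟨e, by rw [← he]; ring⟩
  · rintro ⟨e, he⟩
    exact ⟨e, by rw [he]; ring⟩

lemma exists_rel (hd : Data ι₁ ι₂ π₁ π₂ c N f) (y : B₁) : ∃ x : M₂, Rel ι₁ ι₂ π₁ π₂ c N f x y := by
  obtain ⟨c₁, h1⟩ := hd.cond y
  obtain ⟨c₂, h2⟩ := exists_left hd c₁
  obtain ⟨u, hu⟩ := hd.unit₂.pow c
  refine ⟨(u⁻¹ : M₂ˣ) * ι₂ c₂, c₂, c₁, ?_, h1, h2⟩
  rw [← hu, Units.mul_inv_cancel_left]

lemma eq_of_rel_zero_left (hd : Data ι₁ ι₂ π₁ π₂ c N f) {y : B₁} (h : Rel ι₁ ι₂ π₁ π₂ c N f 0 y) :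
    ∃ e : C₁, y = ι₁ π₁ ^ (N - c) * ι₁ e := by
  obtain ⟨c₂, c₁, h1, h2, h3⟩ := h
  rw [mul_zero] at h1
  have h4 : c₂ = 0 := hd.inj₂ (by rw [h1, map_zero])
  rw [h4, map_zero, ← map_zero (Ideal.Quotient.mk _), eq_comm, mk_eq_iff] at h3
  obtain ⟨e, he⟩ := h3
  refine ⟨e, ?_⟩
  have hle : c + (N - c) = N := by have := hd.hN; omega
  have h5 : ι₁ π₁ ^ c * y = ι₁ π₁ ^ c * (ι₁ π₁ ^ (N - c) * ι₁ e) := by
    rw [← h2, he, zero_add, map_mul, map_pow, ← mul_assoc, ← pow_add, hle]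
  exact (mul_cancel_left_mem_nonZeroDivisors (pow_mem hd.reg₁ c)).mp h5

lemma eq_of_rel_zero_right (hd : Data ι₁ ι₂ π₁ π₂ c N f) {x : M₂} (h : Rel ι₁ ι₂ π₁ π₂ c N f x 0) :
    ∃ e : C₂, x = ι₂ π₂ ^ (N - c) * ι₂ e := by
  obtain ⟨c₂, c₁, h1, h2, h3⟩ := h
  rw [mul_zero] at h2
  have h4 : c₁ = 0 := hd.inj₁ (by rw [h2, map_zero])
  rw [h4, map_zero, ← map_zero f, f_eq_iff hd] at h3
  obtain ⟨e, he⟩ := h3
  refine ⟨e, ?_⟩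
  have hle : c + (N - c) = N := by have := hd.hN; omega
  have h5 : ι₂ π₂ ^ c * x = ι₂ π₂ ^ c * (ι₂ π₂ ^ (N - c) * ι₂ e) := by
    rw [← h1, he, zero_add, map_mul, map_pow, ← mul_assoc, ← pow_add, hle]
  exact (hd.unit₂.pow c).mul_left_cancel h5

/-- Products of related elements are related up to a multiple of `π ^ 2`. -/
lemma rel_mul (hd : Data ι₁ ι₂ π₁ π₂ c N f) {x x' : M₂} {y y' : B₁} (h : Rel ι₁ ι₂ π₁ π₂ c N f x y)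
    (h' : Rel ι₁ ι₂ π₁ π₂ c N f x' y') :
    ∃ e : C₁, Rel ι₁ ι₂ π₁ π₂ c N f (x * x') (y * y' + ι₁ π₁ ^ (N - 2 * c) * ι₁ e) := by
  obtain ⟨c₂, c₁, h1, h2, h3⟩ := h
  obtain ⟨c₂', c₁', h1', h2', h3'⟩ := h'
  obtain ⟨d₁, hd₁⟩ := hd.cond (y * y')
  obtain ⟨d₂, hd₂⟩ := exists_left hd d₁
  have e1 : c₁ * c₁' = π₁ ^ c * d₁ := hd.inj₁ (by
    rw [map_mul, map_mul, map_pow, h2, h2', hd₁]; ring)
  have e2 : f (c₂ * c₂') = f (π₂ ^ c * d₂) := by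
    rw [map_mul, map_mul, map_pow, h3, h3', hd₂, hd.map_pi, ← map_mul, e1, map_mul, map_pow]
  rw [f_eq_iff hd] at e2
  obtain ⟨e, he⟩ := e2
  obtain ⟨e', he'⟩ := exists_right (f := f) e
  have hle : c + (N - c) = N := by have := hd.hN; omega
  have hle2 : c + (N - 2 * c) = N - c := by have := hd.hN; omega
  refine ⟨e', d₂ + π₂ ^ (N - c) * e, d₁ + π₁ ^ (N - c) * e', ?_, ?_, ?_⟩
  · apply (hd.unit₂.pow c).mul_left_cancel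
    have h6 : ι₂ (c₂ * c₂') = ι₂ (π₂ ^ c * d₂ + π₂ ^ N * e) := by rw [he]
    rw [map_mul, h1, h1', map_add, map_mul, map_mul, map_pow, map_pow] at h6
    rw [map_add, map_mul, map_pow, mul_add, ← mul_assoc (ι₂ π₂ ^ c) (ι₂ π₂ ^ (N - c)), ← pow_add, hle, ← h6]
    ring
  · rw [map_add, map_mul, map_pow, hd₁, mul_add, ← mul_assoc (ι₁ π₁ ^ c) (ι₁ π₁ ^ (N - 2 * c)), ← pow_add, hle2]
  · rw [map_add, map_mul, map_pow, hd₂, he', hd.map_pi, map_add, map_mul, map_pow]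

lemma dvd_of_rel (hd : Data ι₁ ι₂ π₁ π₂ c N f) {x : M₂} {y y' : B₁} (h : Rel ι₁ ι₂ π₁ π₂ c N f x y)
    (h' : Rel ι₁ ι₂ π₁ π₂ c N f x y') :
    (Ideal.Quotient.mk (Ideal.span {ι₁ π₁ ^ 2}) y) = Ideal.Quotient.mk _ y' := by
  have h1 := rel_sub h h'
  rw [sub_self] at h1
  obtain ⟨e, he⟩ := eq_of_rel_zero_left hd h1
  rw [Ideal.Quotient.eq, he, Ideal.mem_span_singleton]
  exact (pow_dvd_pow _ (by have := hd.hN; omega)).mul_right _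

variable (hd : Data ι₁ ι₂ π₁ π₂ c N f)

/-- The transferred ring. -/
def ring (hd : Data ι₁ ι₂ π₁ π₂ c N f) : Subring M₂ where
  carrier := {x | ∃ y, Rel ι₁ ι₂ π₁ π₂ c N f x y}
  mul_mem' := by
    rintro a b ⟨y, hy⟩ ⟨y', hy'⟩
    obtain ⟨e, he⟩ := rel_mul hd hy hy'
    exact ⟨_, he⟩
  one_mem' := ⟨1, rel_one hd⟩
  add_mem' := by
    rintro a b ⟨y, hy⟩ ⟨y', hy'⟩
    exact ⟨_, rel_add hy hy'⟩
  zero_mem' := ⟨0, rel_zero⟩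
  neg_mem' := by
    rintro a ⟨y, hy⟩
    exact ⟨_, rel_neg hy⟩

lemma mem_ring {x : M₂} : x ∈ ring hd ↔ ∃ y, Rel ι₁ ι₂ π₁ π₂ c N f x y := Iff.rfl

lemma map_mem_ring (c₂ : C₂) : ι₂ c₂ ∈ ring hd := by
  obtain ⟨c₁, h⟩ := exists_right (f := f) c₂
  exact ⟨_, rel_of_eq hd h⟩

/-- `π ^ c` multiplies the transferred ring into `C₂`. -/
lemma exists_of_mem_ring {x : M₂} (hx : x ∈ ring hd) : ∃ c₂ : C₂, ι₂ c₂ = ι₂ π₂ ^ c * x := by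
  obtain ⟨y, c₂, c₁, h1, -, -⟩ := hx
  exact ⟨c₂, h1⟩

/-- The comparison map. -/
noncomputable def comparison : ring hd →+* B₁ ⧸ Ideal.span {ι₁ π₁ ^ 2} where
  toFun x := Ideal.Quotient.mk _ (Classical.choose x.2)
  map_one' := by
    rw [← map_one (Ideal.Quotient.mk _)]
    exact dvd_of_rel hd (Classical.choose_spec (1 : ring hd).2) (rel_one hd)
  map_mul' x x' := by
    obtain ⟨e, he⟩ := rel_mul hd (Classical.choose_spec x.2) (Classical.choose_spec x'.2)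
    rw [dvd_of_rel hd (Classical.choose_spec (x * x').2) he, map_add, map_mul, add_eq_left,
      Ideal.Quotient.eq_zero_iff_mem, Ideal.mem_span_singleton]
    exact (pow_dvd_pow _ (by have := hd.hN; omega)).mul_right _
  map_zero' := by
    rw [← map_zero (Ideal.Quotient.mk _)]
    exact dvd_of_rel hd (Classical.choose_spec (0 : ring hd).2) rel_zero
  map_add' x x' := by
    rw [← map_add]
    exact dvd_of_rel hd (Classical.choose_spec (x + x').2)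
      (rel_add (Classical.choose_spec x.2) (Classical.choose_spec x'.2))

lemma comparison_eq {x : ring hd} {y : B₁} (h : Rel ι₁ ι₂ π₁ π₂ c N f (x : M₂) y) :
    comparison hd x = Ideal.Quotient.mk _ y :=
  dvd_of_rel hd (Classical.choose_spec x.2) h

lemma comparison_surjective : Function.Surjective (comparison hd) := by
  intro z
  obtain ⟨y, rfl⟩ := Ideal.Quotient.mk_surjective z
  obtain ⟨x, hx⟩ := exists_rel hd y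
  exact ⟨⟨x, y, hx⟩, comparison_eq hd hx⟩

/-- The element `π` of the transferred ring. -/
def pi : ring hd := ⟨ι₂ π₂, map_mem_ring hd π₂⟩

lemma comparison_pi : comparison hd (pi hd) = Ideal.Quotient.mk _ (ι₁ π₁) :=
  comparison_eq hd (rel_of_eq hd hd.map_pi)

lemma comparison_ker : RingHom.ker (comparison hd) = Ideal.span {pi hd ^ 2} := by
  ext x
  rw [RingHom.mem_ker, Ideal.mem_span_singleton]
  constructor
  · intro h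
    obtain ⟨y, hy⟩ := x.2
    rw [comparison_eq hd hy, Ideal.Quotient.eq_zero_iff_mem, Ideal.mem_span_singleton] at h
    obtain ⟨y₀, rfl⟩ := h
    obtain ⟨x₀, hx₀⟩ := exists_rel hd y₀
    have h1 : Rel ι₁ ι₂ π₁ π₂ c N f (ι₂ π₂ ^ 2 * x₀) (ι₁ π₁ ^ 2 * y₀) := by
      have := rel_smul (a₂ := π₂ ^ 2) (a₁ := π₁ ^ 2) (by rw [map_pow, map_pow, hd.map_pi]) hx₀
      rwa [map_pow, map_pow] at this
    have h2 := rel_sub hy h1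
    rw [sub_self] at h2
    obtain ⟨e, he⟩ := eq_of_rel_zero_right hd h2
    refine ⟨⟨x₀, y₀, hx₀⟩ + pi hd ^ (N - c - 2) * ⟨ι₂ e, map_mem_ring hd e⟩, ?_⟩
    apply Subtype.ext
    have h3 : (x : M₂) = ι₂ π₂ ^ 2 * x₀ + ι₂ π₂ ^ (N - c) * ι₂ e := by rw [← he]; ring
    have hle : N - c = 2 + (N - c - 2) := by have := hd.hN; omega
    have h4 : ι₂ π₂ ^ (N - c) = ι₂ π₂ ^ 2 * ι₂ π₂ ^ (N - c - 2) := by rw [← pow_add, ← hle]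
    rw [h3, h4]
    change _ = ι₂ π₂ ^ 2 * (x₀ + ι₂ π₂ ^ (N - c - 2) * ι₂ e)
    ring
  · rintro ⟨z, rfl⟩
    have h0 : (Ideal.Quotient.mk (Ideal.span {ι₁ π₁ ^ 2}) (ι₁ π₁)) ^ 2 = 0 :=
      (map_pow (Ideal.Quotient.mk (Ideal.span {ι₁ π₁ ^ 2})) (ι₁ π₁) 2).symm.trans
        (Ideal.Quotient.eq_zero_iff_mem.mpr (Ideal.mem_span_singleton_self _))
    rw [map_mul, map_pow, comparison_pi, h0, zero_mul]

end

end Groth.Agent.Etalg2.H529.Transfer
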