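import Groth.Agent.Etalg2.H529.OneLevel

/-!
# Deforming two levels at once
-/

set_option autoImplicit false
universe u

open IsLocalRing Polynomial

namespace Groth.Agent.Etalg2.H529.TwoLevel

section Local

variable {R S : Type u} [CommRing R] [IsLocalRing R] [CommRing S] [IsLocalRing S]

/-- The composite to the residue field. -/
noncomputable def resHom {s : S} (hs : s ∈ maximalIdeal S) (Φ : R →+* S ⧸ Ideal.span {s ^ 2}) :
    R →+* ResidueField S :=
  (Ideal.Quotient.lift (Ideal.span {s ^ 2}) (residue S) (fun x hx => by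
    rw [residue_eq_zero_iff]
    obtain ⟨z, rfl⟩ := Ideal.mem_span_singleton.mp hx
    exact Ideal.mul_mem_right _ _ (Ideal.pow_mem_of_mem _ hs 2 (by norm_num)))).comp Φ

omit [IsLocalRing R] in
theorem resHom_eq {s : S} (hs : s ∈ maximalIdeal S) (Φ : R →+* S ⧸ Ideal.span {s ^ 2}) (x : R) (y : S)
    (hxy : Φ x = Ideal.Quotient.mk _ y) : resHom hs Φ x = residue S y := by
  rw [resHom, RingHom.comp_apply, hxy, Ideal.Quotient.lift_mk]

theorem resHom_surjective {s : S} (hs : s ∈ maximalIdeal S) (Φ : R →+* S ⧸ Ideal.span {s ^ 2})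
    (hΦ : Function.Surjective Φ) : Function.Surjective (resHom hs Φ) := by
  intro y
  obtain ⟨y, rfl⟩ := residue_surjective y
  obtain ⟨x, hx⟩ := hΦ (Ideal.Quotient.mk _ y)
  exact ⟨x, resHom_eq hs Φ x y hx⟩

theorem ker_resHom {s : S} (hs : s ∈ maximalIdeal S) (Φ : R →+* S ⧸ Ideal.span {s ^ 2})
    (hΦ : Function.Surjective Φ) : RingHom.ker (resHom hs Φ) = maximalIdeal R :=
  IsLocalRing.eq_maximalIdeal (RingHom.ker_isMaximal_of_surjective _ (resHom_surjective hs Φ hΦ))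

theorem exists_residue_equiv {s : S} (hs : s ∈ maximalIdeal S) (Φ : R →+* S ⧸ Ideal.span {s ^ 2})
    (hΦ : Function.Surjective Φ) :
    ∃ e : ResidueField R ≃+* ResidueField S, ∀ x y, Φ x = Ideal.Quotient.mk _ y → e (residue R x) = residue S y := by
  have hker := ker_resHom hs Φ hΦ
  let e : ResidueField R ≃+* ResidueField S := (Ideal.quotEquivOfEq hker.symm).trans
    (RingHom.quotientKerEquivOfSurjective (resHom_surjective hs Φ hΦ))
  exact ⟨e, fun x y hxy => resHom_eq hs Φ x y hxy⟩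

theorem max_of_comparison {r : R} {s t : S} (hr : r ∈ maximalIdeal R) (hs : s ∈ maximalIdeal S)
    (Φ : R →+* S ⧸ Ideal.span {s ^ 2}) (hΦ : Function.Surjective Φ) (hker : ∀ x, Φ x = 0 ↔ ∃ z, x = r ^ 2 * z)
    (ht : maximalIdeal S = Ideal.span {t}) (t' : R) (ht' : Φ t' = Ideal.Quotient.mk _ t) :
    maximalIdeal R = Ideal.span {t'} := by
  have hmem : ∀ (x : R) (y : S), Φ x = Ideal.Quotient.mk _ y → (x ∈ maximalIdeal R ↔ y ∈ maximalIdeal S) := by
    intro x y hxy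
    rw [← ker_resHom hs Φ hΦ, RingHom.mem_ker, resHom_eq hs Φ x y hxy, residue_eq_zero_iff]
  have htm : t ∈ maximalIdeal S := by rw [ht]; exact Ideal.mem_span_singleton_self t
  have ht'm : t' ∈ maximalIdeal R := (hmem t' t ht').mpr htm
  -- every element of the maximal ideal is `t' s + r ^ 2 z`
  have hdec : ∀ x ∈ maximalIdeal R, ∃ y z, x = t' * y + r ^ 2 * z := by
    intro x hx
    obtain ⟨y, hy⟩ := Ideal.Quotient.mk_surjective (Φ x)
    have h1 : y ∈ maximalIdeal S := (hmem x y hy.symm).mp hx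
    rw [ht, Ideal.mem_span_singleton] at h1
    obtain ⟨w, rfl⟩ := h1
    obtain ⟨w', hw'⟩ := hΦ (Ideal.Quotient.mk _ w)
    have h2 : Φ (x - t' * w') = 0 := by
      rw [map_sub, map_mul, hw', ht', ← hy, map_mul, sub_self]
    obtain ⟨z, hz⟩ := (hker _).mp h2
    exact ⟨w', z, by rw [← hz]; ring⟩
  obtain ⟨y₀, z₀, h₀⟩ := hdec r hr
  have hu : IsUnit (1 - r * z₀) := by
    by_contra hu
    have h1 : (1 - r * z₀) ∈ maximalIdeal R := hu
    have h2 : (1 : R) ∈ maximalIdeal R := by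
      have := Ideal.add_mem _ h1 (Ideal.mul_mem_right z₀ _ hr)
      rwa [sub_add_cancel] at this
    exact (Ideal.ne_top_iff_one _).mp (maximalIdeal.isMaximal R).ne_top h2
  have hrt : r ∈ Ideal.span {t'} := by
    obtain ⟨u, hu⟩ := hu
    rw [Ideal.mem_span_singleton]
    refine ⟨y₀ * ↑(u⁻¹ : Rˣ), ?_⟩
    have h3 : r * (1 - r * z₀) = t' * y₀ := by linear_combination h₀
    rw [← hu] at h3
    calc r = r * (u * ↑(u⁻¹ : Rˣ)) := by rw [Units.mul_inv, mul_one]
      _ = t' * (y₀ * ↑(u⁻¹ : Rˣ)) := by rw [← mul_assoc, h3, mul_assoc]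
  apply le_antisymm
  · intro x hx
    obtain ⟨y, z, rfl⟩ := hdec x hx
    refine Ideal.add_mem _ (Ideal.mul_mem_right _ _ (Ideal.mem_span_singleton_self _)) ?_
    rw [pow_two, mul_assoc]
    exact Ideal.mul_mem_right _ _ hrt
  · rw [Ideal.span_singleton_le_iff_mem]
    exact ht'm

end Local

open OneLevel

variable {Ω : Type u} [Field Ω] {O : ValuationSubring Ω}

theorem incl_incl {F G H : Subfield Ω} (h : F ≤ G) (h' : G ≤ H) (h'' : F ≤ H) (x : VR O F) :
    incl h' (incl h x) = incl h'' x := rfl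

theorem incl_mem_maximalIdeal {F G : Subfield Ω} (h : F ≤ G) {x : VR O F} (hx : x ∈ maximalIdeal (VR O F)) :
    incl h x ∈ maximalIdeal (VR O G) := by
  rw [mem_maximalIdeal_iff] at hx ⊢
  exact hx

theorem twoLevel (E₀ M₀ E M E' M' : Subfield Ω) (h₀ : E₀ ≤ M₀) (hE : E ≤ M) (hE' : E' ≤ M')
    (i₁ : E₀ ≤ E) (i₂ : M₀ ≤ M) (i₃ : E₀ ≤ E') (i₄ : M₀ ≤ M')
    [IsDiscreteValuationRing (VR O E₀)] [IsDiscreteValuationRing (VR O M₀)]
    (π a : VR O E₀) (hπ0 : π ≠ 0) (hπ : π ∈ maximalIdeal (VR O E₀))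
    (p : ℕ) (hp : 2 ≤ p) (b b' : Ω) (hbE : b ∈ E) (hbE' : b' ∈ E') (hb : b ^ p = toΩ O E₀ a)
    (N c : ℕ) (hN : 2 * c + 2 ≤ N) (hb' : b' ^ p = toΩ O E₀ π ^ N * b' + toΩ O E₀ a)
    (hinj : ∀ P : M₀[X], P.degree < p → P.eval₂ M₀.subtype b = 0 → P = 0)
    (hgenE : ∀ x ∈ E, ∃ P : E₀[X], P.degree < p ∧ P.eval₂ E₀.subtype b = x)
    (hgenE' : ∀ x ∈ E', ∃ P : E₀[X], P.eval₂ E₀.subtype b' = x)
    (hgenM' : ∀ x ∈ M', ∃ P : M₀[X], P.eval₂ M₀.subtype b' = x)
    (hc : ∀ y : VR O M, ∃ P : (VR O M₀)[X], P.degree < p ∧ P.eval₂ (toΩ O M₀) b = toΩ O E₀ π ^ c * toΩ O M y)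
    (t : VR O E) (ht : maximalIdeal (VR O E) = Ideal.span {t})
    (htM : maximalIdeal (VR O M) = Ideal.span {incl hE t}) :
    ∃ t' : VR O E', maximalIdeal (VR O E') = Ideal.span {t'} ∧ maximalIdeal (VR O M') = Ideal.span {incl hE' t'} ∧
      ∃ (e : ResidueField (VR O E') ≃+* ResidueField (VR O E))
        (e' : ResidueField (VR O M') ≃+* ResidueField (VR O M)),
        ∀ x, e' (ResidueField.map (incl hE') x) = ResidueField.map (incl hE) (e x) := by
  -- the condition over `E₀`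
  have hinjE : ∀ P : E₀[X], P.degree < p → P.eval₂ E₀.subtype b = 0 → P = 0 := by
    intro P hP h
    have h1 : (P.map (Subfield.inclusion h₀)).eval₂ M₀.subtype b = 0 := by
      rw [eval₂_map]; exact h
    have h2 := hinj _ (by rwa [degree_map_eq_of_injective (Subfield.inclusion h₀).injective]) h1
    exact (Polynomial.map_eq_zero_iff (Subfield.inclusion h₀).injective).mp h2
  have hcE : ∀ y : VR O E, ∃ P : (VR O E₀)[X], P.degree < p ∧
      P.eval₂ (toΩ O E₀) b = toΩ O E₀ π ^ c * toΩ O E y := by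
    intro y
    obtain ⟨Q, hQd, hQ⟩ := hgenE (toΩ O E y) (y : E).2
    obtain ⟨P, hPd, hP⟩ := hc (incl hE y)
    let Q' : E₀[X] := C ((π : E₀) ^ c) * Q
    have hQ' : Q'.eval₂ E₀.subtype b = toΩ O E₀ π ^ c * toΩ O E y := by
      simp only [Q']
      rw [eval₂_mul, eval₂_C, hQ, map_pow]
      rfl
    have hQ'd : Q'.degree < p := by
      rwa [degree_C_mul (pow_ne_zero c fun h0 => hπ0 (Subtype.ext h0))]
    have key : Q'.map (Subfield.inclusion h₀) = P.map (VR O M₀).subtype := by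
      rw [← sub_eq_zero]
      apply hinj
      · refine lt_of_le_of_lt (degree_sub_le _ _) (max_lt ?_ ?_)
        · rwa [degree_map_eq_of_injective (Subfield.inclusion h₀).injective]
        · rwa [degree_map_eq_of_injective Subtype.val_injective]
      · rw [eval₂_sub, eval₂_map, eval₂_map]
        have h1 : Q'.eval₂ (M₀.subtype.comp (Subfield.inclusion h₀)) b = Q'.eval₂ E₀.subtype b := rfl
        rw [h1, hQ', hP, sub_eq_zero]
        rfl
    -- the coefficients of `Q'` are integral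
    have hcoeff : ∀ n, Q'.coeff n ∈ VR O E₀ := by
      intro n
      rw [mem_VR]
      have h1 := congrArg (fun R => ((R.coeff n : M₀) : Ω)) key
      simp only [coeff_map] at h1
      have h2 : ((Q'.coeff n : E₀) : Ω) = toΩ O M₀ (P.coeff n) := h1
      rw [h2]
      exact toΩ_mem _
    refine ⟨Q'.toSubring (VR O E₀).toSubring (by
      intro x hx
      obtain ⟨n, -, rfl⟩ := Polynomial.mem_coeffs_iff.mp hx
      exact hcoeff n), ?_, ?_⟩
    · have := Polynomial.degree_toSubring Q' (VR O E₀).toSubring (by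
        intro x hx
        obtain ⟨n, -, rfl⟩ := Polynomial.mem_coeffs_iff.mp hx
        exact hcoeff n)
      exact lt_of_eq_of_lt this hQ'd
    · rw [← hQ']
      have h3 := Polynomial.map_toSubring Q' (VR O E₀).toSubring (by
        intro x hx
        obtain ⟨n, -, rfl⟩ := Polynomial.mem_coeffs_iff.mp hx
        exact hcoeff n)
      conv_rhs => rw [← h3]
      rw [eval₂_map]
      rfl
  -- the two comparisons
  obtain ⟨ΦE, hΦEs, hΦEk, hΦE⟩ := exists_comparison E₀ E E' i₁ i₃ π a hπ0 hπ p hp b b' hbE hbE' hb N c hN hb'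
    hinjE hgenE' (fun y => (hcE y).imp fun P hP => hP.2) t ht
  have hincl0 : incl (O := O) h₀ π ≠ 0 := by
    intro h
    apply hπ0
    apply toΩ_injective
    rw [map_zero]
    have := congrArg (toΩ O M₀) h
    rw [map_zero] at this
    exact this
  obtain ⟨ΦM, hΦMs, hΦMk, hΦM⟩ := exists_comparison M₀ M M' i₂ i₄ (incl h₀ π) (incl h₀ a) hincl0
    (incl_mem_maximalIdeal h₀ hπ) p hp b b' (hE hbE) (hE' hbE') hb N c hN hb'
    hinj hgenM' (fun y => (hc y).imp fun P hP => hP.2) (incl hE t) htM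
  -- compatibility
  have hcompat : ∀ (x : VR O E') (y : VR O E), ΦE x = Ideal.Quotient.mk _ y →
      ΦM (incl hE' x) = Ideal.Quotient.mk _ (incl hE y) := by
    intro x y hxy
    obtain ⟨P, -, hP⟩ := hcE y
    obtain ⟨x₁, hx₁, hx₁'⟩ := hΦE P y hP
    obtain ⟨x₂, hx₂, hx₂'⟩ := hΦM (P.map (incl h₀)) (incl hE y) (by
      rw [eval₂_map]; exact hP)
    have h1 : x₂ = incl hE' x₁ := by
      apply toΩ_injective
      have h2 : toΩ O E₀ π ^ c ≠ 0 := pow_ne_zero _ fun h0 => hπ0 (toΩ_injective E₀ (by rw [h0, map_zero]))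
      apply mul_left_cancel₀ h2
      have h3 : (P.map (incl h₀)).eval₂ (toΩ O M₀) b' = toΩ O E₀ π ^ c * toΩ O M' x₂ := hx₂
      rw [← h3, eval₂_map]
      exact hx₁
    obtain ⟨z, hz⟩ := (hΦEk (x - x₁)).mp (by rw [map_sub, hxy, hx₁', sub_self])
    have h4 : ΦM (incl hE' (x - x₁)) = 0 := by
      refine (hΦMk _).mpr ⟨incl hE' z, ?_⟩
      rw [hz, map_mul, map_pow]
      rfl
    rw [map_sub, map_sub, sub_eq_zero] at h4
    rw [h4, ← h1, hx₂']
  obtain ⟨t', ht'⟩ := hΦEs (Ideal.Quotient.mk _ t)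
  have hπE := incl_mem_maximalIdeal (O := O) i₁ hπ
  have hπE' := incl_mem_maximalIdeal (O := O) i₃ hπ
  have hπM : incl i₂ (incl h₀ π) ∈ maximalIdeal (VR O M) :=
    incl_mem_maximalIdeal i₂ (incl_mem_maximalIdeal h₀ hπ)
  have hπM' : incl i₄ (incl h₀ π) ∈ maximalIdeal (VR O M') :=
    incl_mem_maximalIdeal i₄ (incl_mem_maximalIdeal h₀ hπ)
  refine ⟨t', max_of_comparison hπE' hπE ΦE hΦEs hΦEk ht t' ht',
    max_of_comparison hπM' hπM ΦM hΦMs hΦMk htM _ (hcompat t' t ht'), ?_⟩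
  obtain ⟨e, he⟩ := exists_residue_equiv hπE ΦE hΦEs
  obtain ⟨e', he'⟩ := exists_residue_equiv hπM ΦM hΦMs
  refine ⟨e, e', ?_⟩
  intro x
  obtain ⟨x, rfl⟩ := residue_surjective x
  obtain ⟨y, hy⟩ := Ideal.Quotient.mk_surjective (ΦE x)
  rw [he x y hy.symm, ResidueField.map_residue, ResidueField.map_residue, he' _ _ (hcompat x y hy.symm)]

end Groth.Agent.Etalg2.H529.TwoLevel
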